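/-
The limit of a subgroup under a quadratic flow: counting and the vanishing of bilinear maps.
-/
import Mathlib

set_option autoImplicit false

namespace Cfsg.Agent.Lib.OffLim.Limit

variable {M : Type*} [AddCommGroup M]

/-- The limit of `N` under the flow `x ↦ x + t D x + t² T x`. -/
def lim (D T : M →+ M) (N : AddSubgroup M) : AddSubgroup M where
  carrier := {z | ∃ x ∈ N, ∃ y ∈ N, ∃ u ∈ N, T x ∈ N ∧ D x + T y ∈ N ∧ z = x + D y + T u}
  add_mem' := by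
    rintro _ _ ⟨x, hx, y, hy, u, hu, h1, h2, rfl⟩ ⟨x', hx', y', hy', u', hu', h1', h2', rfl⟩
    refine ⟨x + x', N.add_mem hx hx', y + y', N.add_mem hy hy', u + u', N.add_mem hu hu', ?_, ?_, ?_⟩
    · rw [map_add]; exact N.add_mem h1 h1'
    · have : D (x + x') + T (y + y') = (D x + T y) + (D x' + T y') := by
        simp only [map_add]; abel
      rw [this]; exact N.add_mem h2 h2'
    · simp only [map_add]; abel
  zero_mem' := ⟨0, N.zero_mem, 0, N.zero_mem, 0, N.zero_mem, by simp, by simp, by simp⟩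
  neg_mem' := by
    rintro _ ⟨x, hx, y, hy, u, hu, h1, h2, rfl⟩
    refine ⟨-x, N.neg_mem hx, -y, N.neg_mem hy, -u, N.neg_mem hu, ?_, ?_, ?_⟩
    · rw [map_neg]; exact N.neg_mem h1
    · have : D (-x) + T (-y) = -(D x + T y) := by
        simp only [map_neg]; abel
      rw [this]; exact N.neg_mem h2
    · simp only [map_neg]; abel

theorem mem_lim {D T : M →+ M} {N : AddSubgroup M} {z : M} :
    z ∈ lim D T N ↔ ∃ x ∈ N, ∃ y ∈ N, ∃ u ∈ N, T x ∈ N ∧ D x + T y ∈ N ∧ z = x + D y + T u :=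
  Iff.rfl

theorem lim_mono {D T : M →+ M} {N N' : AddSubgroup M} (h : N ≤ N') : lim D T N ≤ lim D T N' := by
  rintro _ ⟨x, hx, y, hy, u, hu, h1, h2, rfl⟩
  exact ⟨x, h hx, y, h hy, u, h hu, h h1, h h2, rfl⟩

/-- The pairs occurring in the limit. -/
def pairs (D T : M →+ M) (N : AddSubgroup M) : AddSubgroup (M × M) where
  carrier := {q | q.1 ∈ N ∧ q.2 ∈ N ∧ T q.1 ∈ N ∧ D q.1 + T q.2 ∈ N}
  add_mem' := by
    rintro ⟨x, y⟩ ⟨x', y'⟩ ⟨h1, h2, h3, h4⟩ ⟨h1', h2', h3', h4'⟩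
    refine ⟨N.add_mem h1 h1', N.add_mem h2 h2', ?_, ?_⟩
    · simp only [Prod.fst_add, map_add]; exact N.add_mem h3 h3'
    · have : D (x + x') + T (y + y') = (D x + T y) + (D x' + T y') := by
        simp only [map_add]; abel
      simpa only [Prod.fst_add, Prod.snd_add, this] using N.add_mem h4 h4'
  zero_mem' := by simp
  neg_mem' := by
    rintro ⟨x, y⟩ ⟨h1, h2, h3, h4⟩
    refine ⟨N.neg_mem h1, N.neg_mem h2, ?_, ?_⟩
    · simp only [Prod.fst_neg, map_neg]; exact N.neg_mem h3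
    · have : D (-x) + T (-y) = -(D x + T y) := by
        simp only [map_neg]; abel
      simpa only [Prod.fst_neg, Prod.snd_neg, this] using N.neg_mem h4

/-- **The limit is at least as large as the subgroup.** -/
theorem card_le_lim [Finite M] {D T : M →+ M} (hDD : ∀ x, D (D x) = 2 • T x) (hDT : ∀ x, D (T x) = 0)
    (hTD : ∀ x, T (D x) = 0) (hTT : ∀ x, T (T x) = 0) (N : AddSubgroup M) :
    Nat.card N ≤ Nat.card (lim D T N) := by
  classical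
  set F := pairs D T N with hF
  -- the map
  let Θ : (↥F × ↥N) →+ M :=
    { toFun := fun q => q.1.1.1 + D q.1.1.2 + T q.2.1
      map_zero' := by simp
      map_add' := by
        rintro ⟨⟨⟨x, y⟩, h⟩, ⟨u, hu⟩⟩ ⟨⟨⟨x', y'⟩, h'⟩, ⟨u', hu'⟩⟩
        simp only [Prod.mk_add_mk, AddMemClass.mk_add_mk, Prod.mk_add_mk, map_add]
        abel }
  have hrange : ∀ q, Θ q ∈ lim D T N := by
    rintro ⟨⟨⟨x, y⟩, h1, h2, h3, h4⟩, ⟨u, hu⟩⟩
    exact ⟨x, h1, y, h2, u, hu, h3, h4, rfl⟩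
  -- kernel injects
  have hker : ∀ q : ↥Θ.ker, ((q.1.1.1.2, q.1.2.1) : M × M) ∈ F := by
    rintro ⟨⟨⟨⟨x, y⟩, h1, h2, h3, h4⟩, ⟨u, hu⟩⟩, hq⟩
    have hq' : x + D y + T u = 0 := hq
    have hx : x = -(D y + T u) := by
      rw [eq_neg_iff_add_eq_zero, ← add_assoc]; exact hq'
    refine ⟨h2, hu, ?_, ?_⟩
    · -- `T y ∈ N`
      have h5 : D x + T y = -T y := by
        rw [hx]
        simp only [map_neg, map_add, hDD, hDT]
        rw [two_smul]; abel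
      rw [h5] at h4
      simpa using N.neg_mem h4
    · have h5 : D y + T u = -x := by rw [hx]; abel
      show D y + T u ∈ N
      rw [h5]; exact N.neg_mem h1
  let ι : ↥Θ.ker → ↥F := fun q => ⟨(q.1.1.1.2, q.1.2.1), hker q⟩
  have hι : Function.Injective ι := by
    rintro ⟨⟨⟨⟨x, y⟩, h1⟩, ⟨u, hu⟩⟩, hq⟩ ⟨⟨⟨⟨x', y'⟩, h1'⟩, ⟨u', hu'⟩⟩, hq'⟩ h
    have h' := congrArg Subtype.val h
    simp only [ι, Prod.mk.injEq] at h'
    obtain ⟨e1, e2⟩ := h'
    subst e1 e2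
    have a1 : x + D y + T u = 0 := hq
    have a2 : x' + D y + T u = 0 := hq'
    have : x = x' := by
      have : x + D y + T u = x' + D y + T u := a1.trans a2.symm
      exact add_right_cancel (add_right_cancel this)
    subst this
    rfl
  have h1 : Nat.card ↥Θ.ker ≤ Nat.card ↥F := Nat.card_le_card_of_injective ι hι
  have h2 : Nat.card ↥Θ.range ≤ Nat.card ↥(lim D T N) := by
    apply Nat.card_le_card_of_injective (fun q : ↥Θ.range => (⟨q.1, by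
      obtain ⟨q', hq'⟩ := q.2
      rw [← hq']; exact hrange q'⟩ : ↥(lim D T N)))
    intro a b h
    exact Subtype.ext (congrArg (fun q : ↥(lim D T N) => q.1) h)
  have h3 : Nat.card ↥Θ.ker * Nat.card ↥Θ.range = Nat.card ↥F * Nat.card ↥N := by
    have e1 := AddSubgroup.card_mul_index Θ.ker
    rw [AddSubgroup.index_ker, Nat.card_prod] at e1
    exact e1
  have hFpos : 0 < Nat.card ↥F := Nat.card_pos
  have hN : Nat.card ↥N ≤ Nat.card ↥Θ.range := by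
    by_contra hcon
    push Not at hcon
    have h4 : Nat.card ↥Θ.ker * Nat.card ↥Θ.range < Nat.card ↥F * Nat.card ↥N := by
      calc Nat.card ↥Θ.ker * Nat.card ↥Θ.range ≤ Nat.card ↥F * Nat.card ↥Θ.range := Nat.mul_le_mul_right _ h1
        _ < Nat.card ↥F * Nat.card ↥N := Nat.mul_lt_mul_of_pos_left hcon hFpos
    omega
  exact hN.trans h2

/-- **Bilinear maps vanish on limits.** -/
theorem mu_lim {M₁ M₂ M₃ : Type*} [AddCommGroup M₁] [AddCommGroup M₂] [AddCommGroup M₃]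
    (μ : M₁ →+ M₂ →+ M₃) {D₁ T₁ : M₁ →+ M₁} {D₂ T₂ : M₂ →+ M₂} {N₁ : AddSubgroup M₁} {N₂ : AddSubgroup M₂}
    (hDD₁ : ∀ x, D₁ (D₁ x) = 2 • T₁ x) (hDT₁ : ∀ x, D₁ (T₁ x) = 0)
    (hDD₂ : ∀ x, D₂ (D₂ x) = 2 • T₂ x) (hDT₂ : ∀ x, D₂ (T₂ x) = 0)
    (h0 : ∀ x ∈ N₁, ∀ y ∈ N₂, μ x y = 0)
    (I1 : ∀ x ∈ N₁, ∀ y ∈ N₂, μ (D₁ x) y + μ x (D₂ y) = 0)
    (I2 : ∀ x ∈ N₁, ∀ y ∈ N₂, μ (T₁ x) y + μ (D₁ x) (D₂ y) + μ x (T₂ y) = 0)
    (I3 : ∀ x ∈ N₁, ∀ y ∈ N₂, μ (T₁ x) (D₂ y) + μ (D₁ x) (T₂ y) = 0)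
    (I4 : ∀ x ∈ N₁, ∀ y ∈ N₂, μ (T₁ x) (T₂ y) = 0) :
    ∀ w ∈ lim D₁ T₁ N₁, ∀ w' ∈ lim D₂ T₂ N₂, μ w w' = 0 := by
  rintro _ ⟨x, hx, y, hy, u, hu, hTx, hh, rfl⟩ _ ⟨x', hx', y', hy', u', hu', hTx', hh', rfl⟩
  set h := D₁ x + T₁ y with hh_def
  set h' := D₂ x' + T₂ y' with hh'_def
  have hDx : D₁ x = h - T₁ y := by rw [hh_def]; abel
  have hDx' : D₂ x' = h' - T₂ y' := by rw [hh'_def]; abel
  have hDh : D₁ h = 2 • T₁ x := by rw [hh_def, map_add, hDD₁, hDT₁, add_zero]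
  have hDh' : D₂ h' = 2 • T₂ x' := by rw [hh'_def, map_add, hDD₂, hDT₂, add_zero]
  -- the first group
  have t2 : μ x (D₂ y') = μ (T₁ y) y' := by
    have e := I1 x hx y' hy'
    rw [hDx, map_sub, AddMonoidHom.sub_apply, h0 h hh y' hy', zero_sub] at e
    exact (eq_of_sub_eq_zero (by rw [← e]; abel))
  have t3 : μ (D₁ y) x' = μ y (T₂ y') := by
    have e := I1 y hy x' hx'
    rw [hDx', map_sub, h0 y hy h' hh', zero_sub] at e
    exact (eq_of_sub_eq_zero (by rw [← e]; abel))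
  have g1 : μ x (D₂ y') + μ (D₁ y) x' + μ (D₁ y) (D₂ y') = 0 := by
    rw [t2, t3, ← I2 y hy y' hy']; abel
  -- the second group
  have t6 : μ (D₁ y) (T₂ u') = μ (D₁ x) (D₂ u') := by
    have e := I3 y hy u' hu'
    have e1 : μ h (D₂ u') = 0 := by
      have e2 := I1 h hh u' hu'
      rw [hDh, map_nsmul, AddMonoidHom.nsmul_apply, h0 _ hTx u' hu', smul_zero, zero_add] at e2
      exact e2
    have e3 : μ (T₁ y) (D₂ u') = - μ (D₁ x) (D₂ u') := by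
      have : T₁ y = h - D₁ x := by rw [hh_def]; abel
      rw [this, map_sub, AddMonoidHom.sub_apply, e1, zero_sub]
    rw [e3] at e
    exact (eq_of_sub_eq_zero (by rw [← e]; abel))
  have g2 : μ x (T₂ u') + μ (D₁ y) (T₂ u') = 0 := by
    have e := I2 x hx u' hu'
    rw [h0 _ hTx u' hu', zero_add] at e
    rw [t6, add_comm]; exact e
  -- the third group
  have t8 : μ (T₁ u) (D₂ y') = μ (D₁ u) (D₂ x') := by
    have e := I3 u hu y' hy'
    have e1 : μ (D₁ u) h' = 0 := by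
      have e2 := I1 u hu h' hh'
      rw [hDh', map_nsmul, h0 u hu _ hTx', smul_zero, add_zero] at e2
      exact e2
    have e3 : μ (D₁ u) (T₂ y') = - μ (D₁ u) (D₂ x') := by
      have : T₂ y' = h' - D₂ x' := by rw [hh'_def]; abel
      rw [this, map_sub, e1, zero_sub]
    rw [e3] at e
    exact (eq_of_sub_eq_zero (by rw [← e]; abel))
  have g3 : μ (T₁ u) x' + μ (T₁ u) (D₂ y') = 0 := by
    have e := I2 u hu x' hx'
    rw [h0 u hu _ hTx', add_zero] at e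
    rw [t8]; exact e
  have t1 := h0 x hx x' hx'
  have t9 := I4 u hu u' hu'
  simp only [map_add, AddMonoidHom.add_apply]
  have : μ x x' + μ (D₁ y) x' + μ (T₁ u) x' + (μ x (D₂ y') + μ (D₁ y) (D₂ y') + μ (T₁ u) (D₂ y')) +
      (μ x (T₂ u') + μ (D₁ y) (T₂ u') + μ (T₁ u) (T₂ u')) =
      μ x x' + (μ x (D₂ y') + μ (D₁ y) x' + μ (D₁ y) (D₂ y')) + (μ x (T₂ u') + μ (D₁ y) (T₂ u')) +
      (μ (T₁ u) x' + μ (T₁ u) (D₂ y')) + μ (T₁ u) (T₂ u') := by abel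
  rw [this, t1, g1, g2, g3, t9]
  simp

end Cfsg.Agent.Lib.OffLim.Limit
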