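/-
The word identity expressing `1 + z` as a product of six square-zero units.
-/
import Mathlib

set_option autoImplicit false

namespace Cfsg.Agent.Lib.OffLim.Word

variable {R : Type*} [Ring R]

theorem word_identity {a b c h₁ h₂ h₃ : R}
    (haa : a * a = 0) (hbb : b * b = 0) (hcc : c * c = 0)
    (haba : a * b * a = 0) (haca : a * c * a = 0) (hbab : b * a * b = 0) (hbcb : b * c * b = 0)
    (hcac : c * a * c = 0) (hcbc : c * b * c = 0)
    (hz : (a + b + c) * (a + b + c) = 0)
    (hH : h₁ + h₂ + h₃ = a * b + a * c + b * c)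
    (h12 : h₁ * h₂ = 0) (h13 : h₁ * h₃ = 0) (h23 : h₂ * h₃ = 0)
    (hHH : (h₁ + h₂ + h₃) * (h₁ + h₂ + h₃) = 0)
    (habcH : a * b * c * (h₁ + h₂ + h₃) = 0) :
    (1 + a) * (1 + b) * (1 + c) * (1 - h₁) * (1 - h₂) * (1 - h₃) = 1 + (a + b + c) := by
  have hE : a * b + b * a + a * c + c * a + b * c + c * b = 0 := by
    have : (a + b + c) * (a + b + c) = a * a + b * b + c * c + (a * b + b * a + a * c + c * a + b * c + c * b) := by
      noncomm_ring
    rw [this, haa, hbb, hcc] at hz
    simpa using hz
  -- words of length three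
  have e1 : a * b * c + a * c * b = 0 := by
    have h := congrArg (fun x => a * x) hE
    have : a * (a * b + b * a + a * c + c * a + b * c + c * b) =
        (a * a) * b + a * b * a + (a * a) * c + a * c * a + a * b * c + a * c * b := by noncomm_ring
    simp only [mul_zero] at h
    rw [this, haa, haba, haca] at h
    simpa using h
  have e2 : a * b * c + b * a * c = 0 := by
    have h := congrArg (fun x => x * c) hE
    have : (a * b + b * a + a * c + c * a + b * c + c * b) * c =
        a * b * c + b * a * c + a * (c * c) + c * a * c + b * (c * c) + c * b * c := by noncomm_ring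
    simp only [zero_mul] at h
    rw [this, hcc, hcac, hcbc] at h
    simpa using h
  have e3 : a * c * b + c * a * b = 0 := by
    have h := congrArg (fun x => x * b) hE
    have : (a * b + b * a + a * c + c * a + b * c + c * b) * b =
        a * (b * b) + b * a * b + a * c * b + c * a * b + b * c * b + c * (b * b) := by noncomm_ring
    simp only [zero_mul] at h
    rw [this, hbb, hbab, hbcb] at h
    simpa using h
  have e4 : b * a * c = - (a * b * c) := eq_neg_of_add_eq_zero_right e2
  have e5 : a * c * b = - (a * b * c) := eq_neg_of_add_eq_zero_right e1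
  have e6 : c * a * b = a * b * c := by
    have := eq_neg_of_add_eq_zero_right e3
    rw [this, e5, neg_neg]
  have hzH : (a + b + c) * (a * b + a * c + b * c) = a * b * c := by
    have : (a + b + c) * (a * b + a * c + b * c) =
        (a * a) * b + (a * a) * c + a * b * c + b * a * b + b * a * c + (b * b) * c + c * a * b + c * a * c + c * b * c := by
      noncomm_ring
    rw [this, haa, hbb, hbab, hcac, hcbc, e4, e6]
    simp
  have hprod : (1 - h₁) * (1 - h₂) * (1 - h₃) = 1 - (h₁ + h₂ + h₃) := by
    have : (1 - h₁) * (1 - h₂) * (1 - h₃) = 1 - (h₁ + h₂ + h₃) + h₁ * h₂ + h₁ * h₃ + h₂ * h₃ - (h₁ * h₂) * h₃ := by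
      noncomm_ring
    rw [this, h12, h13, h23]
    simp
  have hfirst : (1 + a) * (1 + b) * (1 + c) = 1 + (a + b + c) + (a * b + a * c + b * c) + a * b * c := by
    noncomm_ring
  calc (1 + a) * (1 + b) * (1 + c) * (1 - h₁) * (1 - h₂) * (1 - h₃)
      = ((1 + a) * (1 + b) * (1 + c)) * ((1 - h₁) * (1 - h₂) * (1 - h₃)) := by noncomm_ring
    _ = (1 + (a + b + c) + (a * b + a * c + b * c) + a * b * c) * (1 - (h₁ + h₂ + h₃)) := by rw [hfirst, hprod]
    _ = 1 + (a + b + c) + (a * b + a * c + b * c) + a * b * c - (h₁ + h₂ + h₃) - (a + b + c) * (h₁ + h₂ + h₃)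
          - (a * b + a * c + b * c) * (h₁ + h₂ + h₃) - a * b * c * (h₁ + h₂ + h₃) := by noncomm_ring
    _ = 1 + (a + b + c) := by
        have h5 : (a * b + a * c + b * c) * (h₁ + h₂ + h₃) = 0 := by rw [← hH]; exact hHH
        rw [habcH, h5, hH, hzH]
        abel

end Cfsg.Agent.Lib.OffLim.Word
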