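/-
Quadratic subgroups of the unit group of a ring, their additive spaces, commutators and the word lemma.
-/
import Mathlib
import Cfsg.Agent.Lib.OffLim.Word

set_option autoImplicit false

namespace Cfsg.Agent.Lib.OffLim.Quad

open Cfsg.Agent.Lib.OffLim.Word

variable {G : Type*} [Group G] {R : Type*} [Ring R] (ρ : G →* R)

/-- `A` is quadratic: the products of two elements `ρ a - 1` vanish. -/
def IsQuad (A : Subgroup G) : Prop := ∀ a ∈ A, ∀ a' ∈ A, (ρ a - 1) * (ρ a' - 1) = 0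

variable {ρ}

theorem IsQuad.mono {A B : Subgroup G} (hA : IsQuad ρ A) (h : B ≤ A) : IsQuad ρ B :=
  fun a ha a' ha' => hA a (h ha) a' (h ha')

theorem rho_mul_sub {a a' : G} (h : (ρ a - 1) * (ρ a' - 1) = 0) :
    ρ (a * a') - 1 = (ρ a - 1) + (ρ a' - 1) := by
  have : ρ (a * a') - 1 = (ρ a - 1) * (ρ a' - 1) + (ρ a - 1) + (ρ a' - 1) := by
    rw [map_mul]; noncomm_ring
  rw [this, h, zero_add]

theorem IsQuad.inv_sub {A : Subgroup G} (hA : IsQuad ρ A) {a : G} (ha : a ∈ A) :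
    ρ a⁻¹ - 1 = -(ρ a - 1) := by
  have h := rho_mul_sub (hA a ha a⁻¹ (A.inv_mem ha))
  rw [mul_inv_cancel, map_one, sub_self] at h
  exact (eq_neg_of_add_eq_zero_right h.symm)

theorem IsQuad.pow_sub {A : Subgroup G} (hA : IsQuad ρ A) {a : G} (ha : a ∈ A) (n : ℕ) :
    ρ (a ^ n) - 1 = n • (ρ a - 1) := by
  induction n with
  | zero => simp
  | succ n ih =>
    rw [pow_succ, rho_mul_sub (hA _ (A.pow_mem ha n) _ ha), ih, succ_nsmul]

/-- The additive space of a quadratic subgroup. -/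
def lie (A : Subgroup G) (hA : IsQuad ρ A) : AddSubgroup R where
  carrier := {x | ∃ g ∈ A, ρ g - 1 = x}
  add_mem' := by
    rintro _ _ ⟨g, hg, rfl⟩ ⟨g', hg', rfl⟩
    exact ⟨g * g', A.mul_mem hg hg', rho_mul_sub (hA g hg g' hg')⟩
  zero_mem' := ⟨1, A.one_mem, by simp⟩
  neg_mem' := by
    rintro _ ⟨g, hg, rfl⟩
    exact ⟨g⁻¹, A.inv_mem hg, hA.inv_sub hg⟩

theorem mem_lie {A : Subgroup G} {hA : IsQuad ρ A} {x : R} : x ∈ lie A hA ↔ ∃ g ∈ A, ρ g - 1 = x := Iff.rfl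

theorem sub_mem_lie {A : Subgroup G} (hA : IsQuad ρ A) {g : G} (hg : g ∈ A) : ρ g - 1 ∈ lie A hA := ⟨g, hg, rfl⟩

theorem lie_mul_eq_zero {A : Subgroup G} {hA : IsQuad ρ A} {x y : R} (hx : x ∈ lie A hA) (hy : y ∈ lie A hA) :
    x * y = 0 := by
  obtain ⟨g, hg, rfl⟩ := hx
  obtain ⟨g', hg', rfl⟩ := hy
  exact hA g hg g' hg'

theorem card_lie (hρ : Function.Injective ρ) {A : Subgroup G} (hA : IsQuad ρ A) [Finite G] :
    Nat.card (lie A hA) = Nat.card A := by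
  classical
  symm
  refine Nat.card_congr (Equiv.ofBijective (fun g : A => (⟨ρ g.1 - 1, g.1, g.2, rfl⟩ : lie A hA)) ⟨?_, ?_⟩)
  · intro a b h
    have h' : ρ a.1 - 1 = ρ b.1 - 1 := congrArg (fun q : lie A hA => q.1) h
    exact Subtype.ext (hρ (sub_left_injective h'))
  · rintro ⟨_, g, hg, rfl⟩
    exact ⟨⟨g, hg⟩, rfl⟩

theorem lie_mono {A B : Subgroup G} (hA : IsQuad ρ A) (hB : IsQuad ρ B) (h : B ≤ A) : lie B hB ≤ lie A hA := by
  rintro _ ⟨g, hg, rfl⟩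
  exact ⟨g, h hg, rfl⟩

/-- Mutual normalisation. -/
def Mutual (Γ Λ : Subgroup G) : Prop := ∀ g ∈ Γ, ∀ h ∈ Λ, g * h * g⁻¹ ∈ Λ ∧ h * g * h⁻¹ ∈ Γ

theorem Mutual.comm_mem_left {Γ Λ : Subgroup G} (hm : Mutual Γ Λ) {g h : G} (hg : g ∈ Γ) (hh : h ∈ Λ) :
    g * h * g⁻¹ * h⁻¹ ∈ Γ := by
  have := (hm g hg h hh).2
  have h2 : h * g⁻¹ * h⁻¹ ∈ Γ := by
    have h3 := (hm g⁻¹ (Γ.inv_mem hg) h hh).2
    exact h3
  have e : g * h * g⁻¹ * h⁻¹ = g * (h * g⁻¹ * h⁻¹) := by group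
  rw [e]
  exact Γ.mul_mem hg h2

theorem Mutual.comm_mem_right {Γ Λ : Subgroup G} (hm : Mutual Γ Λ) {g h : G} (hg : g ∈ Γ) (hh : h ∈ Λ) :
    g * h * g⁻¹ * h⁻¹ ∈ Λ :=
  Λ.mul_mem (hm g hg h hh).1 (Λ.inv_mem hh)

/-- The commutator in terms of the ring. -/
theorem comm_sub {Γ Λ : Subgroup G} (hΓ : IsQuad ρ Γ) (hΛ : IsQuad ρ Λ) (hm : Mutual Γ Λ) {g h : G} (hg : g ∈ Γ) (hh : h ∈ Λ) :
    ρ (g * h * g⁻¹ * h⁻¹) - 1 = (ρ g - 1) * (ρ h - 1) - (ρ h - 1) * (ρ g - 1) := by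
  set c := g * h * g⁻¹ * h⁻¹ with hc
  have hc1 : c ∈ Γ := hm.comm_mem_left hg hh
  have hc2 : c ∈ Λ := hm.comm_mem_right hg hh
  have e : c * h * g = g * h := by rw [hc]; group
  have e' : ρ c * ρ h * ρ g = ρ g * ρ h := by
    rw [← map_mul, ← map_mul, e, map_mul]
  have w1 : (ρ c - 1) * (ρ h - 1) = 0 := hΛ c hc2 h hh
  have w2 : (ρ c - 1) * (ρ g - 1) = 0 := hΓ c hc1 g hg
  set w := ρ c - 1 with hw
  set x := ρ g - 1 with hx
  set y := ρ h - 1 with hy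
  have r1 : ρ c = 1 + w := by rw [hw]; abel
  have r2 : ρ g = 1 + x := by rw [hx]; abel
  have r3 : ρ h = 1 + y := by rw [hy]; abel
  rw [r1, r2, r3] at e'
  have e2 : (1 + w) * (1 + y) * (1 + x) = 1 + y + x + y * x + w + w * y + w * x + (w * y) * x := by noncomm_ring
  have e3 : (1 + x) * (1 + y) = 1 + x + y + x * y := by noncomm_ring
  rw [e2, e3, w1, w2] at e'
  simp only [zero_mul, add_zero] at e'
  have e4 : w = (1 + y + x + y * x + w) - (1 + y + x + y * x) := by abel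
  rw [e4, e']
  abel

/-- The word lemma in the group. -/
theorem word_group {p : ℕ} (hp : Odd p) (hR : ∀ r : R, p • r = 0) {Γ₀ Γ₁ Γ₂ : Subgroup G}
    (h₀ : IsQuad ρ Γ₀) (h₁ : IsQuad ρ Γ₁) (h₂ : IsQuad ρ Γ₂)
    (m01 : Mutual Γ₀ Γ₁) (m02 : Mutual Γ₀ Γ₂) (m12 : Mutual Γ₁ Γ₂)
    {g₀ g₁ g₂ : G} (hg₀ : g₀ ∈ Γ₀) (hg₁ : g₁ ∈ Γ₁) (hg₂ : g₂ ∈ Γ₂)
    (hz : ((ρ g₀ - 1) + (ρ g₁ - 1) + (ρ g₂ - 1)) * ((ρ g₀ - 1) + (ρ g₁ - 1) + (ρ g₂ - 1)) = 0)
    {Y : Subgroup G} (hY : g₀ * g₁ * g₂ ∈ Y) (c01 : g₀ * g₁ * g₀⁻¹ * g₁⁻¹ ∈ Y)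
    (c02 : g₀ * g₂ * g₀⁻¹ * g₂⁻¹ ∈ Y) (c12 : g₁ * g₂ * g₁⁻¹ * g₂⁻¹ ∈ Y) :
    ∃ g ∈ Y, ρ g = 1 + ((ρ g₀ - 1) + (ρ g₁ - 1) + (ρ g₂ - 1)) := by
  obtain ⟨m, hm⟩ := hp
  -- the commutators
  set C1 := g₀ * g₁ * g₀⁻¹ * g₁⁻¹ with hC1
  set C2 := g₀ * g₂ * g₀⁻¹ * g₂⁻¹ with hC2
  set C3 := g₁ * g₂ * g₁⁻¹ * g₂⁻¹ with hC3
  have C10 : C1 ∈ Γ₀ := m01.comm_mem_left hg₀ hg₁
  have C11 : C1 ∈ Γ₁ := m01.comm_mem_right hg₀ hg₁
  have C20 : C2 ∈ Γ₀ := m02.comm_mem_left hg₀ hg₂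
  have C22 : C2 ∈ Γ₂ := m02.comm_mem_right hg₀ hg₂
  have C31 : C3 ∈ Γ₁ := m12.comm_mem_left hg₁ hg₂
  have C32 : C3 ∈ Γ₂ := m12.comm_mem_right hg₁ hg₂
  have w1 := comm_sub h₀ h₁ m01 hg₀ hg₁
  have w2 := comm_sub h₀ h₂ m02 hg₀ hg₂
  have w3 := comm_sub h₁ h₂ m12 hg₁ hg₂
  rw [← hC1] at w1
  rw [← hC2] at w2
  rw [← hC3] at w3
  set a := ρ g₀ - 1 with ha
  set b := ρ g₁ - 1 with hb
  set c := ρ g₂ - 1 with hc
  have haa : a * a = 0 := h₀ _ hg₀ _ hg₀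
  have hbb : b * b = 0 := h₁ _ hg₁ _ hg₁
  have hcc : c * c = 0 := h₂ _ hg₂ _ hg₂
  set W1 := ρ C1 - 1 with hW1
  set W2 := ρ C2 - 1 with hW2
  set W3 := ρ C3 - 1 with hW3
  -- vanishing words
  have haba : a * b * a = 0 := by
    have h : W1 * a = 0 := h₀ _ C10 _ hg₀
    rw [w1] at h
    have e : (a * b - b * a) * a = a * b * a - b * (a * a) := by noncomm_ring
    rw [e, haa] at h
    simpa using h
  have hbab : b * a * b = 0 := by
    have h : W1 * b = 0 := h₁ _ C11 _ hg₁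
    rw [w1] at h
    have e : (a * b - b * a) * b = a * (b * b) - b * a * b := by noncomm_ring
    rw [e, hbb] at h
    simpa using h
  have haca : a * c * a = 0 := by
    have h : W2 * a = 0 := h₀ _ C20 _ hg₀
    rw [w2] at h
    have e : (a * c - c * a) * a = a * c * a - c * (a * a) := by noncomm_ring
    rw [e, haa] at h
    simpa using h
  have hcac : c * a * c = 0 := by
    have h : W2 * c = 0 := h₂ _ C22 _ hg₂
    rw [w2] at h
    have e : (a * c - c * a) * c = a * (c * c) - c * a * c := by noncomm_ring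
    rw [e, hcc] at h
    simpa using h
  have hbcb : b * c * b = 0 := by
    have h : W3 * b = 0 := h₁ _ C31 _ hg₁
    rw [w3] at h
    have e : (b * c - c * b) * b = b * c * b - c * (b * b) := by noncomm_ring
    rw [e, hbb] at h
    simpa using h
  have hcbc : c * b * c = 0 := by
    have h : W3 * c = 0 := h₂ _ C32 _ hg₂
    rw [w3] at h
    have e : (b * c - c * b) * c = b * (c * c) - c * b * c := by noncomm_ring
    rw [e, hcc] at h
    simpa using h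
  -- the correction terms
  set h1 := -(m • W1) with hh1
  set h2 := -(m • W2) with hh2
  set h3 := -(m • W3) with hh3
  have hE : a * b + b * a + a * c + c * a + b * c + c * b = 0 := by
    have : (a + b + c) * (a + b + c) = a * a + b * b + c * c + (a * b + b * a + a * c + c * a + b * c + c * b) := by
      noncomm_ring
    rw [this, haa, hbb, hcc] at hz
    simpa using hz
  have two_cancel : ∀ x : R, 2 • x = 0 → x = 0 := by
    intro x hx
    have e1 : p • x = 0 := hR x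
    have e2 : x = p • x - m • (2 • x) := by
      rw [hm, smul_smul, ← sub_eq_zero]
      have : (2 * m + 1) • x = (m * 2) • x + x := by
        rw [add_smul, one_smul, mul_comm]
      rw [this]
      abel
    rw [e2, e1, hx]
    simp
  have hH : h1 + h2 + h3 = a * b + a * c + b * c := by
    apply sub_eq_zero.1
    apply two_cancel
    -- `2 h = - 2 m W = W` as `p W = 0`
    have q : ∀ x : R, 2 • (-(m • x)) = x := by
      intro x
      have e1 : p • x = 0 := hR x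
      rw [hm] at e1
      have : (2 * m + 1) • x = (2 * m) • x + x := by rw [add_smul, one_smul]
      rw [this] at e1
      have e3 : (2 * m) • x = -x := eq_neg_of_add_eq_zero_left e1
      rw [smul_neg, smul_smul, e3, neg_neg]
    have e1 : 2 • (h1 + h2 + h3 - (a * b + a * c + b * c)) = 2 • h1 + 2 • h2 + 2 • h3 - 2 • (a * b + a * c + b * c) := by
      simp only [smul_sub, smul_add]
    rw [e1, hh1, hh2, hh3, q, q, q, w1, w2, w3]
    have e2 : (a * b - b * a) + (a * c - c * a) + (b * c - c * b) - 2 • (a * b + a * c + b * c) =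
        -(a * b + b * a + a * c + c * a + b * c + c * b) := by
      simp only [two_smul]; abel
    rw [e2, hE, neg_zero]
  have mm : ∀ x y : R, x * y = 0 → (-(m • x)) * (-(m • y)) = 0 := by
    intro x y h
    rw [neg_mul_neg, smul_mul_assoc, mul_smul_comm, h, smul_zero, smul_zero]
  have h12 : h1 * h2 = 0 := mm _ _ (h₀ _ C10 _ C20)
  have h13 : h1 * h3 = 0 := mm _ _ (h₁ _ C11 _ C31)
  have h23 : h2 * h3 = 0 := mm _ _ (h₂ _ C22 _ C32)
  have hHH : (h1 + h2 + h3) * (h1 + h2 + h3) = 0 := by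
    have e : (h1 + h2 + h3) * (h1 + h2 + h3) = h1 * h1 + h1 * h2 + h1 * h3 + (h2 * h1 + h2 * h2 + h2 * h3) +
        (h3 * h1 + h3 * h2 + h3 * h3) := by noncomm_ring
    rw [e, h12, h13, h23, mm _ _ (h₀ _ C10 _ C10), mm _ _ (h₀ _ C20 _ C10), mm _ _ (h₀ _ C20 _ C20),
      mm _ _ (h₁ _ C31 _ C11), mm _ _ (h₂ _ C32 _ C22), mm _ _ (h₁ _ C31 _ C31)]
    simp
  have habcH : a * b * c * (h1 + h2 + h3) = 0 := by
    have c2 : c * h2 = 0 := by
      rw [hh2]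
      have : c * W2 = 0 := h₂ _ hg₂ _ C22
      rw [mul_neg, mul_smul_comm, this, smul_zero, neg_zero]
    have c3 : c * h3 = 0 := by
      rw [hh3]
      have : c * W3 = 0 := h₂ _ hg₂ _ C32
      rw [mul_neg, mul_smul_comm, this, smul_zero, neg_zero]
    have b1 : b * c * W1 = 0 := by
      have h : W3 * W1 = 0 := h₁ _ C31 _ C11
      have h' : b * W1 = 0 := h₁ _ hg₁ _ C11
      rw [w3] at h
      have e : (b * c - c * b) * W1 = b * c * W1 - c * (b * W1) := by noncomm_ring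
      rw [e, h'] at h
      simpa using h
    have c1 : b * c * h1 = 0 := by
      rw [hh1, mul_neg, mul_smul_comm, b1, smul_zero, neg_zero]
    have e : a * b * c * (h1 + h2 + h3) = a * (b * c * h1) + a * b * (c * h2) + a * b * (c * h3) := by noncomm_ring
    rw [e, c1, c2, c3]
    simp
  have key := word_identity haa hbb hcc haba haca hbab hbcb hcac hcbc hz hH h12 h13 h23 hHH habcH
  -- the element
  refine ⟨g₀ * g₁ * g₂ * C1 ^ m * C2 ^ m * C3 ^ m, ?_, ?_⟩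
  · exact Y.mul_mem (Y.mul_mem (Y.mul_mem hY (Y.pow_mem c01 m)) (Y.pow_mem c02 m)) (Y.pow_mem c12 m)
  · -- the powers of the commutators
    have p1 : ρ (C1 ^ m) = 1 - h1 := by
      have := h₀.pow_sub C10 m
      rw [← hW1] at this
      rw [hh1, sub_neg_eq_add, ← this]; abel
    have p2 : ρ (C2 ^ m) = 1 - h2 := by
      have := h₀.pow_sub C20 m
      rw [← hW2] at this
      rw [hh2, sub_neg_eq_add, ← this]; abel
    have p3 : ρ (C3 ^ m) = 1 - h3 := by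
      have := h₁.pow_sub C31 m
      rw [← hW3] at this
      rw [hh3, sub_neg_eq_add, ← this]; abel
    have r1 : ρ g₀ = 1 + a := by rw [ha]; abel
    have r2 : ρ g₁ = 1 + b := by rw [hb]; abel
    have r3 : ρ g₂ = 1 + c := by rw [hc]; abel
    simp only [map_mul]
    rw [p1, p2, p3, r1, r2, r3]
    exact key

end Cfsg.Agent.Lib.OffLim.Quad
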