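/-
The quadratic flow on a ring: the limit of a quadratic subgroup, and its realisation inside the group.
-/
import Mathlib
import Cfsg.Agent.Lib.OffLim.Limit
import Cfsg.Agent.Lib.OffLim.Quad

set_option autoImplicit false

namespace Cfsg.Agent.Lib.OffLim.Flow

open Cfsg.Agent.Lib.OffLim.Limit Cfsg.Agent.Lib.OffLim.Quad

variable {G : Type*} [Group G] {R : Type*} [Ring R]

/-- The derivative of the flow. -/
def dF (S : R) : R →+ R where
  toFun x := S * x - x * S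
  map_zero' := by simp
  map_add' x y := by simp only [mul_add, add_mul]; abel

/-- The second term of the flow. -/
def tF (S : R) : R →+ R where
  toFun x := -(S * x * S)
  map_zero' := by simp
  map_add' x y := by simp only [mul_add, add_mul]; abel

theorem dF_apply (S x : R) : dF S x = S * x - x * S := rfl
theorem tF_apply (S x : R) : tF S x = -(S * x * S) := rfl

section Sq

variable {S : R} (hS : S * S = 0)
include hS

theorem dd (x : R) : dF S (dF S x) = 2 • tF S x := by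
  simp only [dF_apply, tF_apply]
  have : S * (S * x - x * S) - (S * x - x * S) * S = (S * S) * x - 2 • (S * x * S) + x * (S * S) := by
    noncomm_ring
  rw [this, hS]
  simp

theorem dt (x : R) : dF S (tF S x) = 0 := by
  simp only [dF_apply, tF_apply]
  have : S * -(S * x * S) - -(S * x * S) * S = -((S * S) * x * S) + S * x * (S * S) := by noncomm_ring
  rw [this, hS]
  simp

theorem td (x : R) : tF S (dF S x) = 0 := by
  simp only [dF_apply, tF_apply]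
  have : -(S * (S * x - x * S) * S) = -((S * S) * x * S) + S * x * (S * S) := by noncomm_ring
  rw [this, hS]
  simp

theorem tt (x : R) : tF S (tF S x) = 0 := by
  simp only [tF_apply]
  have : -(S * -(S * x * S) * S) = (S * S) * x * (S * S) := by noncomm_ring
  rw [this, hS]
  simp

/-- Products vanish on limits. -/
theorem mul_lim {N : AddSubgroup R} (h0 : ∀ x ∈ N, ∀ y ∈ N, x * y = 0) :
    ∀ w ∈ lim (dF S) (tF S) N, ∀ w' ∈ lim (dF S) (tF S) N, w * w' = 0 := by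
  refine mu_lim (AddMonoidHom.mul) (dd hS) (dt hS) (dd hS) (dt hS) h0 ?_ ?_ ?_ ?_
  · intro x hx y hy
    show (S * x - x * S) * y + x * (S * y - y * S) = 0
    have : (S * x - x * S) * y + x * (S * y - y * S) = S * (x * y) - (x * y) * S := by noncomm_ring
    rw [this, h0 x hx y hy]
    simp
  · intro x hx y hy
    show -(S * x * S) * y + (S * x - x * S) * (S * y - y * S) + x * -(S * y * S) = 0
    have : -(S * x * S) * y + (S * x - x * S) * (S * y - y * S) + x * -(S * y * S) =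
        -(S * (x * y) * S) - x * (S * S) * y := by noncomm_ring
    rw [this, h0 x hx y hy, hS]
    simp
  · intro x hx y hy
    show -(S * x * S) * (S * y - y * S) + (S * x - x * S) * -(S * y * S) = 0
    have : -(S * x * S) * (S * y - y * S) + (S * x - x * S) * -(S * y * S) =
        -(S * x * (S * S) * y) + x * (S * S) * y * S := by noncomm_ring
    rw [this, hS]
    simp
  · intro x hx y hy
    show -(S * x * S) * -(S * y * S) = 0
    have : -(S * x * S) * -(S * y * S) = S * x * (S * S) * y * S := by noncomm_ring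
    rw [this, hS]
    simp

end Sq

variable {ρ : G →* R}

theorem rho_inv_eq {b : G} (hS : (ρ b - 1) * (ρ b - 1) = 0) : ρ b⁻¹ = 1 - (ρ b - 1) := by
  set S := ρ b - 1 with hSd
  have h1 : ρ b = 1 + S := by rw [hSd]; abel
  have h2 : ρ b * (1 - S) = 1 := by
    rw [h1]
    have : (1 + S) * (1 - S) = 1 - S * S := by noncomm_ring
    rw [this, hS]
    simp
  have h3 : ρ b⁻¹ * ρ b = 1 := by rw [← map_mul, inv_mul_cancel, map_one]
  calc ρ b⁻¹ = ρ b⁻¹ * (ρ b * (1 - S)) := by rw [h2, mul_one]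
    _ = (ρ b⁻¹ * ρ b) * (1 - S) := by rw [mul_assoc]
    _ = 1 - S := by rw [h3, one_mul]

theorem flow_plus {b : G} (hS : (ρ b - 1) * (ρ b - 1) = 0) (g : G) :
    ρ (b * g * b⁻¹) - 1 = (ρ g - 1) + dF (ρ b - 1) (ρ g - 1) + tF (ρ b - 1) (ρ g - 1) := by
  have hb := rho_inv_eq hS
  simp only [map_mul, hb, dF_apply, tF_apply]
  set S := ρ b - 1 with hSd
  set x := ρ g - 1 with hx
  have h1 : ρ b = 1 + S := by rw [hSd]; abel
  have h2 : ρ g = 1 + x := by rw [hx]; abel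
  rw [h1, h2]
  have : (1 + S) * (1 + x) * (1 - S) - 1 = x + (S * x - x * S) + -(S * x * S) - S * S := by noncomm_ring
  rw [this, hS]
  simp

theorem flow_minus {b : G} (hS : (ρ b - 1) * (ρ b - 1) = 0) (g : G) :
    ρ (b⁻¹ * g * b) - 1 = (ρ g - 1) - dF (ρ b - 1) (ρ g - 1) + tF (ρ b - 1) (ρ g - 1) := by
  have hb := rho_inv_eq hS
  simp only [map_mul, hb, dF_apply, tF_apply]
  set S := ρ b - 1 with hSd
  set x := ρ g - 1 with hx
  have h1 : ρ b = 1 + S := by rw [hSd]; abel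
  have h2 : ρ g = 1 + x := by rw [hx]; abel
  rw [h1, h2]
  have : (1 - S) * (1 + x) * (1 + S) - 1 = x - (S * x - x * S) + -(S * x * S) - S * S := by noncomm_ring
  rw [this, hS]
  simp

/-- The conjugate of a subgroup. -/
def cj (b : G) (A : Subgroup G) : Subgroup G := A.map (MulAut.conj b).toMonoidHom

theorem mem_cj {b g : G} {A : Subgroup G} : g ∈ cj b A ↔ b⁻¹ * g * b ∈ A := by
  constructor
  · rintro ⟨a, ha, rfl⟩
    have : b⁻¹ * ((MulAut.conj b).toMonoidHom a) * b = a := by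
      simp [MulAut.conj_apply]
      group
    rw [this]; exact ha
  · intro h
    refine ⟨_, h, ?_⟩
    simp [MulAut.conj_apply]
    group

theorem conj_mem_cj {b a : G} {A : Subgroup G} (ha : a ∈ A) : b * a * b⁻¹ ∈ cj b A := by
  rw [mem_cj]
  have : b⁻¹ * (b * a * b⁻¹) * b = a := by group
  rw [this]; exact ha

theorem IsQuad.cj {A : Subgroup G} (hA : IsQuad ρ A) (b : G) : IsQuad ρ (cj b A) := by
  intro g hg g' hg'
  rw [mem_cj] at hg hg'
  have key := hA _ hg _ hg'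
  have h1 : ρ b⁻¹ * ρ b = 1 := by rw [← map_mul, inv_mul_cancel, map_one]
  have h2 : ρ b * ρ b⁻¹ = 1 := by rw [← map_mul, mul_inv_cancel, map_one]
  simp only [map_mul] at key
  have e : ρ g - 1 = ρ b * (ρ b⁻¹ * ρ g * ρ b - 1) * ρ b⁻¹ := by
    have : ρ b * (ρ b⁻¹ * ρ g * ρ b - 1) * ρ b⁻¹ = (ρ b * ρ b⁻¹) * ρ g * (ρ b * ρ b⁻¹) - ρ b * ρ b⁻¹ := by noncomm_ring
    rw [this, h2]
    simp
  have e' : ρ g' - 1 = ρ b * (ρ b⁻¹ * ρ g' * ρ b - 1) * ρ b⁻¹ := by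
    have : ρ b * (ρ b⁻¹ * ρ g' * ρ b - 1) * ρ b⁻¹ = (ρ b * ρ b⁻¹) * ρ g' * (ρ b * ρ b⁻¹) - ρ b * ρ b⁻¹ := by noncomm_ring
    rw [this, h2]
    simp
  rw [e, e']
  calc ρ b * (ρ b⁻¹ * ρ g * ρ b - 1) * ρ b⁻¹ * (ρ b * (ρ b⁻¹ * ρ g' * ρ b - 1) * ρ b⁻¹)
      = ρ b * (ρ b⁻¹ * ρ g * ρ b - 1) * (ρ b⁻¹ * ρ b) * (ρ b⁻¹ * ρ g' * ρ b - 1) * ρ b⁻¹ := by noncomm_ring
    _ = ρ b * ((ρ b⁻¹ * ρ g * ρ b - 1) * (ρ b⁻¹ * ρ g' * ρ b - 1)) * ρ b⁻¹ := by rw [h1]; noncomm_ring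
    _ = 0 := by rw [key]; simp

/-- The flow conjugates of `A` normalise `A`. -/
def NF (b : G) (A : Subgroup G) : Prop :=
  ∀ n : ℤ, ∀ g ∈ A, ∀ h ∈ A, (b ^ n * g * b ^ (-n)) * h * (b ^ n * g * b ^ (-n))⁻¹ ∈ A

theorem NF.inf {b : G} {A : Subgroup G} (h : NF b A) (Z : Subgroup G) [Z.Normal] : NF b (A ⊓ Z) := by
  intro n g hg k hk
  refine ⟨h n g hg.1 k hk.1, ?_⟩
  have h1 : b ^ n * g * b ^ (-n) ∈ Z := by
    have := ‹Z.Normal›.conj_mem g hg.2 (b ^ n)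
    rwa [zpow_neg]
  exact Z.mul_mem (Z.mul_mem h1 hk.2) (Z.inv_mem h1)

theorem mut01 {b : G} {A : Subgroup G} (h : NF b A) : Mutual A (cj b A) := by
  intro g hg k hk
  rw [mem_cj] at hk
  constructor
  · rw [mem_cj]
    have := h (-1) g hg _ hk
    have e : b⁻¹ * (g * k * g⁻¹) * b =
        b ^ (-1 : ℤ) * g * b ^ (-(-1) : ℤ) * (b⁻¹ * k * b) * (b ^ (-1 : ℤ) * g * b ^ (-(-1) : ℤ))⁻¹ := by
      group
    rw [e]; exact this
  · have := h 1 _ hk g hg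
    have e : k * g * k⁻¹ =
        b ^ (1 : ℤ) * (b⁻¹ * k * b) * b ^ (-1 : ℤ) * g * (b ^ (1 : ℤ) * (b⁻¹ * k * b) * b ^ (-1 : ℤ))⁻¹ := by
      group
    rw [e]; exact this

theorem mut02 {b : G} {A : Subgroup G} (h : NF b A) : Mutual A (cj b⁻¹ A) := by
  intro g hg k hk
  rw [mem_cj, inv_inv] at hk
  constructor
  · rw [mem_cj, inv_inv]
    have := h 1 g hg _ hk
    have e : b * (g * k * g⁻¹) * b⁻¹ =
        b ^ (1 : ℤ) * g * b ^ (-1 : ℤ) * (b * k * b⁻¹) * (b ^ (1 : ℤ) * g * b ^ (-1 : ℤ))⁻¹ := by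
      group
    rw [e]; exact this
  · have := h (-1) _ hk g hg
    have e : k * g * k⁻¹ =
        b ^ (-1 : ℤ) * (b * k * b⁻¹) * b ^ (-(-1) : ℤ) * g * (b ^ (-1 : ℤ) * (b * k * b⁻¹) * b ^ (-(-1) : ℤ))⁻¹ := by
      group
    rw [e]; exact this

theorem mut12 {b : G} {A : Subgroup G} (h : NF b A) : Mutual (cj b A) (cj b⁻¹ A) := by
  intro g hg k hk
  rw [mem_cj] at hg
  rw [mem_cj, inv_inv] at hk
  constructor
  · rw [mem_cj, inv_inv]
    have := h 2 _ hg _ hk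
    have e : b * (g * k * g⁻¹) * b⁻¹ =
        b ^ (2 : ℤ) * (b⁻¹ * g * b) * b ^ (-2 : ℤ) * (b * k * b⁻¹) * (b ^ (2 : ℤ) * (b⁻¹ * g * b) * b ^ (-2 : ℤ))⁻¹ := by
      group
    rw [e]; exact this
  · rw [mem_cj]
    have := h (-2) _ hk _ hg
    have e : b⁻¹ * (k * g * k⁻¹) * b =
        b ^ (-2 : ℤ) * (b * k * b⁻¹) * b ^ (-(-2) : ℤ) * (b⁻¹ * g * b) * (b ^ (-2 : ℤ) * (b * k * b⁻¹) * b ^ (-(-2) : ℤ))⁻¹ := by
      group
    rw [e]; exact this

/-- **Realisation of the elements of the limit.** -/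
theorem realize {p k : ℕ} (hp : Odd p) (hk : 2 * k = p + 1) (hR : ∀ r : R, p • r = 0) {A : Subgroup G} (hA : IsQuad ρ A)
    {b : G} (hS : (ρ b - 1) * (ρ b - 1) = 0) (hNF : NF b A)
    {gx gy gu : G} (hgx : gx ∈ A) (hgy : gy ∈ A) (hgu : gu ∈ A)
    (h1 : tF (ρ b - 1) (ρ gx - 1) ∈ lie A hA) (h2 : dF (ρ b - 1) (ρ gx - 1) + tF (ρ b - 1) (ρ gy - 1) ∈ lie A hA)
    {Y : Subgroup G}
    (hY : gx * gu⁻¹ * (b * (gy * gu) ^ k * b⁻¹) * (b⁻¹ * (gu * gy⁻¹) ^ k * b) ∈ Y)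
    (c01 : (gx * gu⁻¹) * (b * (gy * gu) ^ k * b⁻¹) * (gx * gu⁻¹)⁻¹ * (b * (gy * gu) ^ k * b⁻¹)⁻¹ ∈ Y)
    (c02 : (gx * gu⁻¹) * (b⁻¹ * (gu * gy⁻¹) ^ k * b) * (gx * gu⁻¹)⁻¹ * (b⁻¹ * (gu * gy⁻¹) ^ k * b)⁻¹ ∈ Y)
    (c12 : (b * (gy * gu) ^ k * b⁻¹) * (b⁻¹ * (gu * gy⁻¹) ^ k * b) * (b * (gy * gu) ^ k * b⁻¹)⁻¹ * (b⁻¹ * (gu * gy⁻¹) ^ k * b)⁻¹ ∈ Y) :
    ∃ g ∈ Y, ρ g = 1 + ((ρ gx - 1) + dF (ρ b - 1) (ρ gy - 1) + tF (ρ b - 1) (ρ gu - 1)) := by
  set S := ρ b - 1 with hSd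
  set x := ρ gx - 1 with hx
  set y := ρ gy - 1 with hy
  set u := ρ gu - 1 with hu
  have hxl : x ∈ lie A hA := ⟨gx, hgx, rfl⟩
  have hyl : y ∈ lie A hA := ⟨gy, hgy, rfl⟩
  have hul : u ∈ lie A hA := ⟨gu, hgu, rfl⟩
  have hzl : x + dF S y + tF S u ∈ lim (dF S) (tF S) (lie A hA) := ⟨x, hxl, y, hyl, u, hul, h1, h2, rfl⟩
  have hz := mul_lim hS (fun a ha c hc => lie_mul_eq_zero ha hc) _ hzl _ hzl
  -- the three elements
  have g0m : gx * gu⁻¹ ∈ A := A.mul_mem hgx (A.inv_mem hgu)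
  have g1m : (gy * gu) ^ k ∈ A := A.pow_mem (A.mul_mem hgy hgu) k
  have g2m : (gu * gy⁻¹) ^ k ∈ A := A.pow_mem (A.mul_mem hgu (A.inv_mem hgy)) k
  have i1 : ρ gu⁻¹ - 1 = -u := hA.inv_sub hgu
  have i2 : ρ gy⁻¹ - 1 = -y := hA.inv_sub hgy
  have e0 : ρ (gx * gu⁻¹) - 1 = x - u := by
    have i0 : ρ (gx * gu⁻¹) - 1 = x + (ρ gu⁻¹ - 1) := rho_mul_sub (hA _ hgx _ (A.inv_mem hgu))
    rw [i0, i1]
    abel
  have ev : ρ ((gy * gu) ^ k) - 1 = k • (y + u) := by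
    rw [hA.pow_sub (A.mul_mem hgy hgu), rho_mul_sub (hA _ hgy _ hgu)]
  have ev' : ρ ((gu * gy⁻¹) ^ k) - 1 = k • (u - y) := by
    have i3 : ρ (gu * gy⁻¹) - 1 = u + (ρ gy⁻¹ - 1) := rho_mul_sub (hA _ hgu _ (A.inv_mem hgy))
    rw [hA.pow_sub (A.mul_mem hgu (A.inv_mem hgy)), i3, i2, sub_eq_add_neg]
  have half : ∀ r : R, k • (2 • r) = r := by
    intro r
    rw [smul_smul, mul_comm, hk, add_smul, one_smul, hR, zero_add]
  have e1 := flow_plus hS ((gy * gu) ^ k)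
  have e2 := flow_minus hS ((gu * gy⁻¹) ^ k)
  rw [ev] at e1
  rw [ev'] at e2
  have e3 : k • (y + u) + k • (u - y) = u := by
    rw [← smul_add]
    have : y + u + (u - y) = 2 • u := by rw [two_smul]; abel
    rw [this, half]
  have e4 : k • (y + u) - k • (u - y) = y := by
    rw [← smul_sub]
    have : y + u - (u - y) = 2 • y := by rw [two_smul]; abel
    rw [this, half]
  have hsum : (ρ (gx * gu⁻¹) - 1) + (ρ (b * (gy * gu) ^ k * b⁻¹) - 1) + (ρ (b⁻¹ * (gu * gy⁻¹) ^ k * b) - 1) =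
      x + dF S y + tF S u := by
    rw [e0, e1, e2]
    have e5 : dF S (k • (y + u)) - dF S (k • (u - y)) = dF S y := by
      rw [← map_sub, e4]
    have e6 : tF S (k • (y + u)) + tF S (k • (u - y)) = tF S u := by
      rw [← map_add, e3]
    have : x - u + (k • (y + u) + dF S (k • (y + u)) + tF S (k • (y + u))) +
        (k • (u - y) - dF S (k • (u - y)) + tF S (k • (u - y))) =
        x - u + (k • (y + u) + k • (u - y)) + (dF S (k • (y + u)) - dF S (k • (u - y))) +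
        (tF S (k • (y + u)) + tF S (k • (u - y))) := by abel
    rw [this, e3, e5, e6]
    abel
  have hq0 := word_group (ρ := ρ) hp hR hA (IsQuad.cj hA b) (IsQuad.cj hA b⁻¹) (mut01 hNF) (mut02 hNF) (mut12 hNF)
    g0m (conj_mem_cj g1m) (by
      have := conj_mem_cj (b := b⁻¹) g2m
      rwa [inv_inv] at this) (by rw [hsum]; exact hz) hY c01 c02 c12
  rw [hsum] at hq0
  exact hq0

end Cfsg.Agent.Lib.OffLim.Flow
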