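/-
The subgroup attached to the limit: its size relative to normal subgroups, and the strict increase.
-/
import Mathlib
import Cfsg.Agent.Lib.OffLim.Flow

set_option autoImplicit false

namespace Cfsg.Agent.Lib.OffLim.Star

open Cfsg.Agent.Lib.OffLim.Limit Cfsg.Agent.Lib.OffLim.Quad Cfsg.Agent.Lib.OffLim.Flow

variable {G : Type*} [Group G] {R : Type*} [Ring R] {ρ : G →* R}

/-- The subgroup attached to the limit. -/
def star {A : Subgroup G} (hA : IsQuad ρ A) {S : R} (hS : S * S = 0) : Subgroup G where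
  carrier := {g | ρ g - 1 ∈ lim (dF S) (tF S) (lie A hA)}
  mul_mem' := by
    intro g h hg hh
    have h0 := mul_lim hS (fun a ha c hc => lie_mul_eq_zero (hA := hA) ha hc) _ hg _ hh
    show ρ (g * h) - 1 ∈ lim (dF S) (tF S) (lie A hA)
    rw [rho_mul_sub h0]
    exact AddSubgroup.add_mem _ hg hh
  one_mem' := by
    show ρ 1 - 1 ∈ lim (dF S) (tF S) (lie A hA)
    rw [map_one, sub_self]
    exact AddSubgroup.zero_mem _
  inv_mem' := by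
    intro g hg
    have h0 := mul_lim hS (fun a ha c hc => lie_mul_eq_zero (hA := hA) ha hc) _ hg _ hg
    show ρ g⁻¹ - 1 ∈ lim (dF S) (tF S) (lie A hA)
    have h1 := rho_inv_eq h0
    have h2 : ρ g⁻¹ - 1 = -(ρ g - 1) := by rw [h1]; abel
    rw [h2]
    exact AddSubgroup.neg_mem _ hg

theorem mem_star {A : Subgroup G} {hA : IsQuad ρ A} {S : R} {hS : S * S = 0} {g : G} :
    g ∈ star hA hS ↔ ρ g - 1 ∈ lim (dF S) (tF S) (lie A hA) := Iff.rfl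

theorem star_quad {A : Subgroup G} (hA : IsQuad ρ A) {S : R} (hS : S * S = 0) : IsQuad ρ (star hA hS) := by
  intro a ha a' ha'
  exact mul_lim hS (fun a ha c hc => lie_mul_eq_zero (hA := hA) ha hc) _ ha _ ha'

/-- Elements of the limit inside a normal subgroup. -/
theorem exists_rep {p k : ℕ} (hp : Odd p) (hk : 2 * k = p + 1) (hR : ∀ r : R, p • r = 0) {A : Subgroup G} (hA : IsQuad ρ A)
    {b : G} (hS : (ρ b - 1) * (ρ b - 1) = 0) (hNF : NF b A) {Z : Subgroup G} [hZn : Z.Normal] (hZ : A ≤ Z)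
    {X : R} (hX : X ∈ lim (dF (ρ b - 1)) (tF (ρ b - 1)) (lie A hA)) : ∃ g ∈ Z, ρ g = 1 + X := by
  obtain ⟨_, ⟨gx, hgx, rfl⟩, _, ⟨gy, hgy, rfl⟩, _, ⟨gu, hgu, rfl⟩, h1, h2, rfl⟩ := hX
  have z0 : gx * gu⁻¹ ∈ Z := Z.mul_mem (hZ hgx) (Z.inv_mem (hZ hgu))
  have z1 : b * (gy * gu) ^ k * b⁻¹ ∈ Z := hZn.conj_mem _ (Z.pow_mem (Z.mul_mem (hZ hgy) (hZ hgu)) k) b
  have z2 : b⁻¹ * (gu * gy⁻¹) ^ k * b ∈ Z := by
    have := hZn.conj_mem _ (Z.pow_mem (Z.mul_mem (hZ hgu) (Z.inv_mem (hZ hgy))) k) b⁻¹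
    rwa [inv_inv] at this
  exact realize hp hk hR hA hS hNF hgx hgy hgu h1 h2 (Z.mul_mem (Z.mul_mem z0 z1) z2)
    (Z.mul_mem (Z.mul_mem (Z.mul_mem z0 z1) (Z.inv_mem z0)) (Z.inv_mem z1))
    (Z.mul_mem (Z.mul_mem (Z.mul_mem z0 z2) (Z.inv_mem z0)) (Z.inv_mem z2))
    (Z.mul_mem (Z.mul_mem (Z.mul_mem z1 z2) (Z.inv_mem z1)) (Z.inv_mem z2))

/-- The intersection with any normal subgroup does not decrease. -/
theorem card_inf_le [Finite G] [Finite R] {p k : ℕ} (hp : Odd p) (hk : 2 * k = p + 1) (hR : ∀ r : R, p • r = 0)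
    (hρ : Function.Injective ρ) {A : Subgroup G} (hA : IsQuad ρ A)
    {b : G} (hS : (ρ b - 1) * (ρ b - 1) = 0) (hNF : NF b A) (Z : Subgroup G) [hZn : Z.Normal] :
    Nat.card ↥(A ⊓ Z) ≤ Nat.card ↥(star hA hS ⊓ Z) := by
  classical
  have hA' : IsQuad ρ (A ⊓ Z) := hA.mono inf_le_left
  have hNF' : NF b (A ⊓ Z) := hNF.inf Z
  have h1 : Nat.card ↥(A ⊓ Z) = Nat.card (lie (A ⊓ Z) hA') := (card_lie hρ hA').symm
  have h2 : Nat.card (lie (A ⊓ Z) hA') ≤ Nat.card (lim (dF (ρ b - 1)) (tF (ρ b - 1)) (lie (A ⊓ Z) hA')) :=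
    card_le_lim (dd hS) (dt hS) (td hS) (tt hS) _
  have hrep : ∀ X : lim (dF (ρ b - 1)) (tF (ρ b - 1)) (lie (A ⊓ Z) hA'), ∃ g : G, g ∈ Z ∧ ρ g = 1 + X.1 := by
    intro X
    exact exists_rep hp hk hR hA' hS hNF' inf_le_right X.2
  choose f hfZ hfρ using hrep
  have h3 : Nat.card (lim (dF (ρ b - 1)) (tF (ρ b - 1)) (lie (A ⊓ Z) hA')) ≤ Nat.card ↥(star hA hS ⊓ Z) := by
    refine Nat.card_le_card_of_injective (fun X => (⟨f X, ?_, hfZ X⟩ : ↥(star hA hS ⊓ Z))) ?_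
    · show ρ (f X) - 1 ∈ lim (dF (ρ b - 1)) (tF (ρ b - 1)) (lie A hA)
      rw [hfρ X, add_sub_cancel_left]
      exact lim_mono (lie_mono hA hA' inf_le_left) X.2
    · intro X Y hXY
      have h4 : f X = f Y := congrArg (fun q : ↥(star hA hS ⊓ Z) => q.1) hXY
      have h5 := hfρ X
      rw [h4, hfρ Y] at h5
      exact Subtype.ext (add_left_cancel h5).symm
  omega

theorem mem_lim_of_inv {p k : ℕ} (hk : 2 * k = p + 1) (hR : ∀ r : R, p • r = 0) {A : Subgroup G} (hA : IsQuad ρ A)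
    {b : G} (hS : (ρ b - 1) * (ρ b - 1) = 0) {h : G} (hh : h ∈ A) (h1 : b * h * b⁻¹ ∈ A) (h2 : b⁻¹ * h * b ∈ A) :
    h ∈ star hA hS := by
  set S := ρ b - 1 with hSd
  set x := ρ h - 1 with hx
  have hxl : x ∈ lie A hA := ⟨h, hh, rfl⟩
  have e1 : x + dF S x + tF S x ∈ lie A hA := by
    rw [← flow_plus hS h]
    exact ⟨_, h1, rfl⟩
  have e2 : x - dF S x + tF S x ∈ lie A hA := by
    rw [← flow_minus hS h]
    exact ⟨_, h2, rfl⟩
  have half : ∀ r : R, k • (2 • r) = r := by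
    intro r
    rw [smul_smul, mul_comm, hk, add_smul, one_smul, hR, zero_add]
  have hT : tF S x ∈ lie A hA := by
    have e3 : 2 • tF S x = (x + dF S x + tF S x) + (x - dF S x + tF S x) - 2 • x := by
      simp only [two_smul]; abel
    have e4 : 2 • tF S x ∈ lie A hA := by
      rw [e3]
      exact AddSubgroup.sub_mem _ (AddSubgroup.add_mem _ e1 e2) (AddSubgroup.nsmul_mem _ hxl 2)
    have := AddSubgroup.nsmul_mem _ e4 k
    rwa [half] at this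
  have hD : dF S x ∈ lie A hA := by
    have e3 : dF S x = (x + dF S x + tF S x) - x - tF S x := by abel
    rw [e3]
    exact AddSubgroup.sub_mem _ (AddSubgroup.sub_mem _ e1 hxl) hT
  refine ⟨x, hxl, 0, AddSubgroup.zero_mem _, 0, AddSubgroup.zero_mem _, hT, ?_, ?_⟩
  · simpa using hD
  · simp only [map_zero, add_zero]
    rfl

section Strict

variable {Z Z' : Subgroup G} [hZn : Z.Normal] [hZ'n : Z'.Normal]

omit hZn hZ'n in
theorem comm_in (hcomm : ⁅Z, (⊤ : Subgroup G)⁆ ≤ Z') {w : G} (hw : w ∈ Z) (c : G) : w * c * w⁻¹ * c⁻¹ ∈ Z' :=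
  hcomm (Subgroup.commutator_mem_commutator hw (Subgroup.mem_top c))

omit hZn in
theorem conj_eq (hcomm : ⁅Z, (⊤ : Subgroup G)⁆ ≤ Z') {w : G} (hw : w ∈ Z) (c : G) :
    ((c * w * c⁻¹ : G) : G ⧸ Z') = (w : G ⧸ Z') := by
  rw [QuotientGroup.eq_iff_div_mem]
  have h := Z'.inv_mem (comm_in hcomm hw c)
  have e : c * w * c⁻¹ / w = (w * c * w⁻¹ * c⁻¹)⁻¹ := by
    rw [div_eq_mul_inv]; group
  rw [e]; exact h

/-- **The strict increase.** -/
theorem card_lt [Finite G] {p k : ℕ} (hp : Odd p) (hk : 2 * k = p + 1) (hR : ∀ r : R, p • r = 0)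
    (hρ : Function.Injective ρ) {A : Subgroup G} (hA : IsQuad ρ A)
    {b : G} (hS : (ρ b - 1) * (ρ b - 1) = 0) (hNF : NF b A) (hZ'Z : Z' ≤ Z) (hcomm : ⁅Z, (⊤ : Subgroup G)⁆ ≤ Z')
    {g : G} (hgA : g ∈ A) (hgZ : g ∈ Z) (hbg : b * g * b⁻¹ ∉ A)
    (hinv : ∀ h ∈ A ⊓ Z', b * h * b⁻¹ ∈ A ∧ b⁻¹ * h * b ∈ A) :
    Nat.card ↥(A ⊓ Z') < Nat.card ↥(star hA hS ⊓ Z') := by
  classical
  have hA' : IsQuad ρ (A ⊓ Z) := hA.mono inf_le_left
  have hNF' : NF b (A ⊓ Z) := hNF.inf Z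
  have hg' : g ∈ A ⊓ Z := ⟨hgA, hgZ⟩
  have h1m : (1 : G) ∈ A ⊓ Z := Subgroup.one_mem _
  -- `g ^ p = 1`
  have hgp : g ^ p = 1 := by
    apply hρ
    have := hA.pow_sub hgA p
    rw [hR, sub_eq_zero] at this
    rw [this, map_one]
  have hgk : g ^ k * g ^ k = g := by
    rw [← pow_add, ← two_mul, hk, pow_succ, hgp, one_mul]
  set S := ρ b - 1 with hSd
  set x := ρ g - 1 with hx
  have hxl : x ∈ lie A hA := ⟨g, hgA, rfl⟩
  have hxl' : x ∈ lie (A ⊓ Z) hA' := ⟨g, hg', rfl⟩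
  have z1 : ∀ w ∈ Z, b * w * b⁻¹ ∈ Z := fun w hw => hZn.conj_mem w hw b
  have z2 : ∀ w ∈ Z, b⁻¹ * w * b ∈ Z := fun w hw => by
    have := hZn.conj_mem w hw b⁻¹
    rwa [inv_inv] at this
  have q1 : ∀ w ∈ Z, ((b * w * b⁻¹ : G) : G ⧸ Z') = (w : G ⧸ Z') := fun w hw => conj_eq hcomm hw b
  have q2 : ∀ w ∈ Z, ((b⁻¹ * w * b : G) : G ⧸ Z') = (w : G ⧸ Z') := fun w hw => by
    have := conj_eq hcomm hw b⁻¹
    rwa [inv_inv] at this
  -- case (a): the second term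
  have e1 : ρ (1 : G) - 1 = 0 := by rw [map_one, sub_self]
  have hgkZ : g ^ k ∈ Z := Z.pow_mem hgZ k
  have hA0 : ∃ g' ∈ Z', ρ g' = 1 + tF S x := by
    have hw1 : (1 * g) ^ k ∈ Z := Z.pow_mem (Z.mul_mem Z.one_mem hgZ) k
    have hg0 : (1 : G) * g⁻¹ ∈ Z := Z.mul_mem Z.one_mem (Z.inv_mem hgZ)
    have hE : g⁻¹ * (b * g ^ k * b⁻¹) * (b⁻¹ * g ^ k * b) ∈ Z' := by
      rw [← QuotientGroup.eq_one_iff]
      have e2 : ((g⁻¹ * (b * g ^ k * b⁻¹) * (b⁻¹ * g ^ k * b) : G) : G ⧸ Z') =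
          ((g⁻¹ : G) : G ⧸ Z') * ((b * g ^ k * b⁻¹ : G) : G ⧸ Z') * ((b⁻¹ * g ^ k * b : G) : G ⧸ Z') := rfl
      rw [e2, q1 _ hgkZ, q2 _ hgkZ]
      have e3 : ((g⁻¹ : G) : G ⧸ Z') * ((g ^ k : G) : G ⧸ Z') * ((g ^ k : G) : G ⧸ Z') =
          ((g⁻¹ * g ^ k * g ^ k : G) : G ⧸ Z') := rfl
      rw [e3, mul_assoc, hgk, inv_mul_cancel]
      rfl
    have := realize hp hk hR hA' hS hNF' h1m h1m hg'
      (by rw [e1, map_zero]; exact AddSubgroup.zero_mem _)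
      (by rw [e1, map_zero, map_zero, add_zero]; exact AddSubgroup.zero_mem _)
      (Y := Z') (by simp only [one_mul, inv_one, mul_one]; exact hE)
      (comm_in hcomm hg0 _) (comm_in hcomm hg0 _) (comm_in hcomm (z1 _ hw1) _)
    obtain ⟨g', hg'Z, hg'ρ⟩ := this
    refine ⟨g', hg'Z, ?_⟩
    rw [hg'ρ, e1, map_zero, zero_add, zero_add]
  obtain ⟨g₁, hg₁, hρ₁⟩ := hA0
  have hle : A ⊓ Z' ≤ star hA hS ⊓ Z' := by
    intro h hh
    exact ⟨mem_lim_of_inv hk hR hA hS hh.1 (hinv h hh).1 (hinv h hh).2, hh.2⟩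
  -- a new element
  have hnew : ∃ g' ∈ star hA hS ⊓ Z', g' ∉ A := by
    by_cases hT : tF S x ∈ lie A hA
    · -- the first term
      obtain ⟨a, ha, hax⟩ := hT
      have hag : a = g₁ := by
        apply hρ
        rw [hρ₁, ← hax]
        abel
      have hT' : tF S x ∈ lie (A ⊓ Z) hA' := ⟨a, ⟨ha, by rw [hag]; exact hZ'Z hg₁⟩, hax⟩
      have hw1 : (g * 1) ^ k ∈ Z := Z.pow_mem (Z.mul_mem hgZ Z.one_mem) k
      have hg0 : (1 : G) * 1⁻¹ ∈ Z := Z.mul_mem Z.one_mem (Z.inv_mem Z.one_mem)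
      have hgk'Z : (g⁻¹) ^ k ∈ Z := Z.pow_mem (Z.inv_mem hgZ) k
      have hE : (b * g ^ k * b⁻¹) * (b⁻¹ * (g⁻¹) ^ k * b) ∈ Z' := by
        rw [← QuotientGroup.eq_one_iff]
        have e2 : (((b * g ^ k * b⁻¹) * (b⁻¹ * (g⁻¹) ^ k * b) : G) : G ⧸ Z') =
            ((b * g ^ k * b⁻¹ : G) : G ⧸ Z') * ((b⁻¹ * (g⁻¹) ^ k * b : G) : G ⧸ Z') := rfl
        rw [e2, q1 _ hgkZ, q2 _ hgk'Z]
        have e3 : ((g ^ k : G) : G ⧸ Z') * (((g⁻¹) ^ k : G) : G ⧸ Z') = ((g ^ k * (g⁻¹) ^ k : G) : G ⧸ Z') := rfl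
        rw [e3, inv_pow, mul_inv_cancel]
        rfl
      have := realize hp hk hR hA' hS hNF' h1m hg' h1m
        (by rw [e1, map_zero]; exact AddSubgroup.zero_mem _)
        (by rw [e1, map_zero, zero_add]; exact hT')
        (Y := Z') (by simp only [one_mul, inv_one, mul_one]; exact hE)
        (comm_in hcomm hg0 _) (comm_in hcomm hg0 _) (comm_in hcomm (z1 _ hw1) _)
      obtain ⟨g₂, hg₂Z, hg₂ρ⟩ := this
      have hρ₂ : ρ g₂ - 1 = dF S x := by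
        rw [hg₂ρ, e1, map_zero, zero_add, add_zero, add_sub_cancel_left]
      refine ⟨g₂, ⟨?_, hg₂Z⟩, ?_⟩
      · show ρ g₂ - 1 ∈ lim (dF S) (tF S) (lie A hA)
        rw [hρ₂]
        refine ⟨0, AddSubgroup.zero_mem _, x, hxl, 0, AddSubgroup.zero_mem _, ?_, ?_, ?_⟩
        · simp
        · rw [map_zero, zero_add]
          exact ⟨a, ha, hax⟩
        · simp
      · intro hg₂A
        apply hbg
        have h5 : ρ (b * g * b⁻¹) - 1 ∈ lie A hA := by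
          rw [flow_plus hS g, ← hρ₂]
          exact AddSubgroup.add_mem _ (AddSubgroup.add_mem _ hxl ⟨g₂, hg₂A, rfl⟩) ⟨a, ha, hax⟩
        obtain ⟨a', ha', hax'⟩ := h5
        have : a' = b * g * b⁻¹ := hρ (sub_left_injective hax')
        rw [← this]; exact ha'
    · -- the second term
      have hρ₂ : ρ g₁ - 1 = tF S x := by
        rw [hρ₁]
        simp
      refine ⟨g₁, ⟨?_, hg₁⟩, ?_⟩
      · show ρ g₁ - 1 ∈ lim (dF S) (tF S) (lie A hA)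
        rw [hρ₂]
        refine ⟨0, AddSubgroup.zero_mem _, 0, AddSubgroup.zero_mem _, x, hxl, ?_, ?_, ?_⟩
        · simp
        · simp
        · simp
      · intro h
        exact hT (hρ₂ ▸ ⟨g₁, h, rfl⟩)
  obtain ⟨g', hg'm, hg'A⟩ := hnew
  by_contra hcon
  push Not at hcon
  have heq := Subgroup.eq_of_le_of_card_ge hle hcon
  have : g' ∈ A ⊓ Z' := by rw [heq]; exact hg'm
  exact hg'A this.1

end Strict

end Cfsg.Agent.Lib.OffLim.Star
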