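/-
A quadratic offender normal in its normal closure, for a `p`-group acting faithfully on an elementary abelian group, `p` odd.
-/
import Mathlib
import Cfsg.Agent.Lib.OffLim.Star

set_option autoImplicit false

namespace Cfsg.Agent.Lib.OffLim.Main

open Cfsg.Agent.Lib.OffLim.Limit Cfsg.Agent.Lib.OffLim.Quad Cfsg.Agent.Lib.OffLim.Flow
  Cfsg.Agent.Lib.OffLim.Star

variable {G W : Type*} [Group G] [AddCommGroup W]

/-- The fixed points. -/
def fixW (ρ : G →* AddMonoid.End W) (A : Subgroup G) : AddSubgroup W where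
  carrier := {w | ∀ a ∈ A, ρ a w = w}
  add_mem' := by
    intro x y hx hy a ha
    rw [map_add, hx a ha, hy a ha]
  zero_mem' := by
    intro a _
    exact map_zero _
  neg_mem' := by
    intro x hx a ha
    rw [map_neg, hx a ha]

theorem mem_fixW {ρ : G →* AddMonoid.End W} {A : Subgroup G} {w : W} : w ∈ fixW ρ A ↔ ∀ a ∈ A, ρ a w = w := Iff.rfl

/-- Evaluation. -/
def evalHom : AddMonoid.End W →+ W →+ W where
  toFun r := r
  map_zero' := rfl
  map_add' _ _ := rfl

theorem evalHom_apply (r : AddMonoid.End W) (w : W) : evalHom r w = r w := rfl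

/-- An endomorphism as a homomorphism. -/
def sH (S : AddMonoid.End W) : W →+ W := S

theorem sH_apply (S : AddMonoid.End W) (w : W) : sH S w = S w := rfl

variable {ρ : G →* AddMonoid.End W}

/-- The limit of the fixed points is fixed by the limit. -/
theorem lim_fix {A : Subgroup G} (hA : IsQuad ρ A) {S : AddMonoid.End W} (hS : S * S = 0) :
    lim (sH S) (0 : W →+ W) (fixW ρ A) ≤ fixW ρ (star hA hS) := by
  intro w hw a ha
  have hSw : ∀ w : W, S (S w) = 0 := fun w => by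
    have : (S * S) w = S (S w) := rfl
    rw [← this, hS]; rfl
  have h0 : ∀ x ∈ lie A hA, ∀ y ∈ fixW ρ A, x y = 0 := by
    rintro _ ⟨g, hg, rfl⟩ y hy
    have e : (ρ g - 1) y = ρ g y - y := rfl
    rw [e, hy g hg, sub_self]
  have key := mu_lim (evalHom (W := W)) (D₁ := dF S) (T₁ := tF S) (D₂ := sH S) (T₂ := (0 : W →+ W))
    (N₁ := lie A hA) (N₂ := fixW ρ A) (dd hS) (dt hS) (fun x => by
      rw [sH_apply, sH_apply, hSw]; simp) (fun x => by
      rw [AddMonoidHom.zero_apply, map_zero]) h0 ?_ ?_ ?_ ?_ _ ha w hw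
  · have e : (ρ a - 1) w = ρ a w - w := rfl
    have e' : (ρ a - 1) w = 0 := key
    rw [e] at e'
    exact sub_eq_zero.1 e'
  · intro x hx y hy
    show (S * x - x * S) y + x (S y) = 0
    have e : (S * x - x * S) y = S (x y) - x (S y) := rfl
    rw [e, h0 x hx y hy, map_zero]
    abel
  · intro x hx y hy
    show (-(S * x * S)) y + (S * x - x * S) (S y) + x ((0 : W →+ W) y) = 0
    have e : (-(S * x * S)) y = -(S (x (S y))) := rfl
    have e' : (S * x - x * S) (S y) = S (x (S y)) - x (S (S y)) := rfl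
    rw [e, e', hSw]
    simp
  · intro x hx y hy
    show (-(S * x * S)) (S y) + (S * x - x * S) ((0 : W →+ W) y) = 0
    have e : (-(S * x * S)) (S y) = -(S (x (S (S y)))) := rfl
    rw [e, hSw]
    simp
  · intro x hx y hy
    show (-(S * x * S)) ((0 : W →+ W) y) = 0
    simp

theorem card_fix_le [Finite W] {A : Subgroup G} (hA : IsQuad ρ A) {S : AddMonoid.End W} (hS : S * S = 0) :
    Nat.card (fixW ρ A) ≤ Nat.card (fixW ρ (star hA hS)) := by
  have hSw : ∀ w : W, S (S w) = 0 := fun w => by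
    have : (S * S) w = S (S w) := rfl
    rw [← this, hS]; rfl
  have h1 : Nat.card (fixW ρ A) ≤ Nat.card (lim (sH S) (0 : W →+ W) (fixW ρ A)) :=
    card_le_lim (fun x => by
      rw [sH_apply, sH_apply, hSw]; simp) (fun x => by
      rw [AddMonoidHom.zero_apply, map_zero]) (fun x => by simp) (fun x => by simp) _
  have h2 := lim_fix hA hS
  have h3 : Nat.card (lim (sH S) (0 : W →+ W) (fixW ρ A)) ≤ Nat.card (fixW ρ (star hA hS)) :=
    AddSubgroup.card_le_of_le h2
  exact h1.trans h3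

theorem inv_of_forward [Finite G] {B : Subgroup G} {b : G} (h : ∀ x ∈ B, b * x * b⁻¹ ∈ B) : ∀ x ∈ B, b⁻¹ * x * b ∈ B := by
  let f : B → B := fun x => ⟨b * x.1 * b⁻¹, h x.1 x.2⟩
  have hf : Function.Injective f := by
    intro x y hxy
    have h1 : b * x.1 * b⁻¹ = b * y.1 * b⁻¹ := congrArg Subtype.val hxy
    exact Subtype.ext (mul_left_cancel (mul_right_cancel h1))
  have hs := Finite.injective_iff_surjective.1 hf
  intro x hx
  obtain ⟨y, hy⟩ := hs ⟨x, hx⟩
  have h1 : b * y.1 * b⁻¹ = x := congrArg Subtype.val hy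
  have : b⁻¹ * x * b = y.1 := by rw [← h1]; group
  rw [this]; exact y.2

/-- **Main theorem.** -/
theorem main {p : ℕ} [hp : Fact p.Prime] (hp2 : p ≠ 2) [Finite G] [Finite W] (hpG : IsPGroup p G)
    (hW : ∀ w : W, p • w = 0) (hρ : Function.Injective ρ)
    (h0 : ∃ A : Subgroup G, ∃ hA : IsQuad ρ A, A ≠ ⊥ ∧ Nat.card W ≤ Nat.card A * Nat.card (fixW ρ A)) :
    ∃ A : Subgroup G, IsQuad ρ A ∧ A ≠ ⊥ ∧ Nat.card W ≤ Nat.card A * Nat.card (fixW ρ A) ∧
      ∀ h : G, ∀ a ∈ A, h * a * h⁻¹ ∈ Subgroup.normalizer (A : Set G) := by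
  classical
  have hodd : Odd p := hp.out.odd_of_ne_two hp2
  obtain ⟨k, hk⟩ : ∃ k, 2 * k = p + 1 := by
    obtain ⟨m, hm⟩ := hodd
    exact ⟨m + 1, by omega⟩
  have hR : ∀ r : AddMonoid.End W, p • r = 0 := by
    intro r
    ext w
    exact hW (r w)
  haveI : Finite (AddMonoid.End W) :=
    Finite.of_injective (fun f : AddMonoid.End W => (f : W → W)) DFunLike.coe_injective
  haveI hnil : Group.IsNilpotent G := hpG.isNilpotent
  obtain ⟨N₀, hN₀⟩ := Subgroup.nilpotent_iff_lowerCentralSeries.1 hnil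
  set γ : ℕ → Subgroup G := fun j => (⊤ : Subgroup G).lowerCentralSeries j with hγ
  haveI hγn : ∀ j, (γ j).Normal := fun j => inferInstance
  let Ψ : Subgroup G → ℕ := fun A => ∑ j ∈ Finset.range (N₀ + 1), Nat.card ↥(A ⊓ γ j)
  let 𝒬 : Set (Subgroup G) := {A | ∃ hA : IsQuad ρ A, A ≠ ⊥ ∧ Nat.card W ≤ Nat.card A * Nat.card (fixW ρ A)}
  have h𝒬 : 𝒬.Nonempty := by
    obtain ⟨A, hA, h1, h2⟩ := h0
    exact ⟨A, hA, h1, h2⟩
  obtain ⟨A, ⟨hA, hAb, hAoff⟩, hAmax⟩ := Set.exists_max_image 𝒬 Ψ (Set.toFinite _) h𝒬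
  refine ⟨A, hA, hAb, hAoff, ?_⟩
  by_contra hcon
  push Not at hcon
  obtain ⟨h₀, a₀, ha₀, hnot⟩ := hcon
  -- the maximal subgroup with no new conjugates
  set N := Subgroup.normalizer (A : Set G) with hN
  have hAN : A ≤ N := Subgroup.le_normalizer
  let PP : Set (Subgroup G) := {T | N ≤ T ∧ ∀ h : G, cj h A ≤ T → cj h A ≤ N}
  have hPP : N ∈ PP := ⟨le_rfl, fun _ h => h⟩
  obtain ⟨T, hNT, hTmax⟩ := (Set.toFinite PP).exists_le_maximal hPP
  have hTP : N ≤ T ∧ ∀ h : G, cj h A ≤ T → cj h A ≤ N := hTmax.prop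
  have hTtop : T ≠ ⊤ := by
    rintro rfl
    have := hTP.2 h₀ le_top (conj_mem_cj ha₀)
    exact hnot this
  have hTlt : T < Subgroup.normalizer (T : Set G) :=
    Group.normalizerCondition_of_isNilpotent T (lt_top_iff_ne_top.2 hTtop)
  -- a conjugate of `A` normalising `T` and not normalising `A`
  have hnP : Subgroup.normalizer (T : Set G) ∉ PP := by
    intro hin
    have := hTmax.le_of_ge hin hTlt.le
    exact absurd this (not_le_of_gt hTlt)
  have hex : ∃ h : G, cj h A ≤ Subgroup.normalizer (T : Set G) ∧ ¬ cj h A ≤ N := by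
    by_contra hno
    push Not at hno
    exact hnP ⟨hTP.1.trans hTlt.le, hno⟩
  obtain ⟨h, hh1, hh2⟩ := hex
  obtain ⟨b, hb, hbN⟩ := SetLike.not_le_iff_exists.1 hh2
  have hbT : b ∈ Subgroup.normalizer (T : Set G) := hh1 hb
  have hNF : NF b A := by
    intro n g hg g' hg'
    have hbn : b ^ n ∈ Subgroup.normalizer (T : Set G) := Subgroup.zpow_mem _ hbT n
    have hle : cj (b ^ n) A ≤ T := by
      intro x hx
      rw [mem_cj] at hx
      have h1 : (b ^ n)⁻¹ * x * b ^ n ∈ T := hTP.1 (hAN hx)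
      have h2 := (Subgroup.mem_normalizer_iff.1 hbn _).1 h1
      have e : b ^ n * ((b ^ n)⁻¹ * x * b ^ n) * (b ^ n)⁻¹ = x := by group
      rwa [e] at h2
    have h3 : b ^ n * g * (b ^ n)⁻¹ ∈ N := hTP.2 (b ^ n) hle (conj_mem_cj hg)
    rw [zpow_neg]
    exact (Subgroup.mem_normalizer_iff.1 h3 g').1 hg'
  have hS : (ρ b - 1) * (ρ b - 1) = 0 := IsQuad.cj hA h b hb b hb
  -- `b` moves an element of `A`
  have hmove : ¬ ∀ g ∈ A, b * g * b⁻¹ ∈ A := by
    intro hall
    apply hbN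
    rw [hN, Subgroup.mem_normalizer_iff]
    intro x
    constructor
    · exact hall x
    · intro hx
      have := inv_of_forward hall _ hx
      have e : b⁻¹ * (b * x * b⁻¹) * b = x := by group
      rwa [e] at this
  -- the new subgroup
  have hle : ∀ (Z : Subgroup G) [Z.Normal], Nat.card ↥(A ⊓ Z) ≤ Nat.card ↥(star hA hS ⊓ Z) :=
    fun Z _ => card_inf_le hodd hk hR hρ hA hS hNF Z
  have hcard : Nat.card A ≤ Nat.card ↥(star hA hS) := by
    have := hle ⊤
    rwa [inf_top_eq, inf_top_eq] at this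
  have hstar : star hA hS ∈ 𝒬 := by
    refine ⟨star_quad hA hS, ?_, ?_⟩
    · intro hbot
      rw [hbot, Subgroup.card_bot] at hcard
      exact hAb (Subgroup.eq_bot_of_card_le A hcard)
    · exact hAoff.trans (Nat.mul_le_mul hcard (card_fix_le hA hS))
  have hΨ := hAmax _ hstar
  -- the strict inequality
  let Inv : ℕ → Prop := fun m => ∀ x ∈ A ⊓ γ m, b * x * b⁻¹ ∈ A
  have hInvN : Inv N₀ := by
    intro x hx
    have h1 : x ∈ (⊥ : Subgroup G) := by
      have := hx.2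
      rw [hγ] at this
      simpa [hN₀] using this
    rw [Subgroup.mem_bot] at h1
    subst h1
    simp [A.one_mem]
  have hexI : ∃ m, Inv m := ⟨N₀, hInvN⟩
  have hm0 : Nat.find hexI ≠ 0 := by
    intro h0'
    have h1 := Nat.find_spec hexI
    rw [h0'] at h1
    apply hmove
    intro g hg
    exact h1 g ⟨hg, by simp [hγ]⟩
  obtain ⟨j, hj⟩ := Nat.exists_eq_succ_of_ne_zero hm0
  have hjle : j + 1 ≤ N₀ := by
    have := Nat.find_min' hexI hInvN
    omega
  have hIj1 : Inv (j + 1) := by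
    have h1 := Nat.find_spec hexI
    rwa [hj] at h1
  have hIj : ¬ Inv j := Nat.find_min hexI (by omega)
  have hIj' : ∃ g ∈ A ⊓ γ j, b * g * b⁻¹ ∉ A := by
    by_contra hno
    push Not at hno
    exact hIj hno
  obtain ⟨g, hg, hbg⟩ := hIj'
  have hinv : ∀ x ∈ A ⊓ γ (j + 1), b * x * b⁻¹ ∈ A ∧ b⁻¹ * x * b ∈ A := by
    intro x hx
    refine ⟨hIj1 x hx, ?_⟩
    have hfor : ∀ y ∈ A ⊓ γ (j + 1), b * y * b⁻¹ ∈ A ⊓ γ (j + 1) := fun y hy =>
      ⟨hIj1 y hy, (hγn (j + 1)).conj_mem y hy.2 b⟩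
    exact (inv_of_forward hfor x hx).1
  have hstrict : Nat.card ↥(A ⊓ γ (j + 1)) < Nat.card ↥(star hA hS ⊓ γ (j + 1)) :=
    card_lt (Z := γ j) (Z' := γ (j + 1)) hodd hk hR hρ hA hS hNF
      (Subgroup.lowerCentralSeries_antitone (⊤ : Subgroup G) (Nat.le_succ j)) le_rfl hg.1 hg.2 hbg hinv
  have hsum : Ψ A < Ψ (star hA hS) :=
    Finset.sum_lt_sum (fun i _ => hle (γ i)) ⟨j + 1, Finset.mem_range.2 (by omega), hstrict⟩
  omega

end Cfsg.Agent.Lib.OffLim.Main
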