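/-
The main theorem for an action on a multiplicative abelian group.
-/
import Mathlib
import Cfsg.Agent.Lib.OffLim.Main

set_option autoImplicit false

namespace Cfsg.Agent.Lib.OffLim.MulForm

open Cfsg.Agent.Lib.OffLim.Quad Cfsg.Agent.Lib.OffLim.Main

variable {G Vc : Type*} [Group G] [CommGroup Vc]

/-- The additive form of an action. -/
def rhoOf (α : G →* Monoid.End Vc) : G →* AddMonoid.End (Additive Vc) where
  toFun g := MonoidHom.toAdditive (α g)
  map_one' := by
    ext x
    have : α 1 = 1 := map_one α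
    simp [this]
    rfl
  map_mul' g h := by
    ext x
    have : α (g * h) = α g * α h := map_mul α g h
    simp [this]
    rfl

theorem rhoOf_apply (α : G →* Monoid.End Vc) (g : G) (w : Additive Vc) :
    rhoOf α g w = Additive.ofMul (α g (Additive.toMul w)) := rfl

theorem rhoSub (α : G →* Monoid.End Vc) (a : G) (w : Additive Vc) :
    (rhoOf α a - 1) w = Additive.ofMul (α a (Additive.toMul w) * (Additive.toMul w)⁻¹) := by
  have : (rhoOf α a - 1) w = Additive.ofMul (α a (Additive.toMul w) / Additive.toMul w) := rfl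
  rw [this, div_eq_mul_inv]

theorem rhoSub2 (α : G →* Monoid.End Vc) (a a' : G) (w : Additive Vc) :
    ((rhoOf α a - 1) * (rhoOf α a' - 1)) w =
      Additive.ofMul (α a (α a' (Additive.toMul w) * (Additive.toMul w)⁻¹) *
        (α a' (Additive.toMul w) * (Additive.toMul w)⁻¹)⁻¹) := by
  have : ((rhoOf α a - 1) * (rhoOf α a' - 1)) w = (rhoOf α a - 1) ((rhoOf α a' - 1) w) := rfl
  rw [this, rhoSub α a', rhoSub α a]
  rfl

/-- The multiplicative form of quadraticity. -/
def MQuad (α : G →* Monoid.End Vc) (A : Subgroup G) : Prop :=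
  ∀ a ∈ A, ∀ a' ∈ A, ∀ v : Vc, α a (α a' v * v⁻¹) = α a' v * v⁻¹

theorem isQuad_iff (α : G →* Monoid.End Vc) (A : Subgroup G) : IsQuad (rhoOf α) A ↔ MQuad α A := by
  constructor
  · intro h a ha a' ha' v
    have h1 := h a ha a' ha'
    have h2 := congrArg (fun f : AddMonoid.End (Additive Vc) => f (Additive.ofMul v)) h1
    have h3 : ((rhoOf α a - 1) * (rhoOf α a' - 1)) (Additive.ofMul v) =
        Additive.ofMul (α a (α a' v * v⁻¹) * (α a' v * v⁻¹)⁻¹) := rhoSub2 α a a' _
    have h4 : α a (α a' v * v⁻¹) * (α a' v * v⁻¹)⁻¹ = 1 := by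
      have h5 : Additive.ofMul (α a (α a' v * v⁻¹) * (α a' v * v⁻¹)⁻¹) = 0 := by
        rw [← h3]
        simpa using h2
      exact h5
    exact mul_inv_eq_one.1 h4
  · intro h a ha a' ha'
    ext w
    have h3 : ((rhoOf α a - 1) * (rhoOf α a' - 1)) w =
        Additive.ofMul (α a (α a' (Additive.toMul w) * (Additive.toMul w)⁻¹) *
          (α a' (Additive.toMul w) * (Additive.toMul w)⁻¹)⁻¹) := rhoSub2 α a a' _
    rw [h3, h a ha a' ha' (Additive.toMul w), mul_inv_cancel]
    rfl

/-- The fixed points, multiplicatively. -/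
theorem card_fix_eq (α : G →* Monoid.End Vc) (A : Subgroup G) :
    Nat.card (fixW (rhoOf α) A) = Nat.card {v : Vc // ∀ a ∈ A, α a v = v} := by
  refine Nat.card_congr
    { toFun := fun w => ⟨Additive.toMul w.1, fun a ha => ?_⟩
      invFun := fun v => ⟨Additive.ofMul v.1, fun a ha => ?_⟩
      left_inv := fun w => rfl
      right_inv := fun v => rfl }
  · exact congrArg Additive.toMul (w.2 a ha)
  · exact congrArg Additive.ofMul (v.2 a ha)

theorem rhoOf_injective (α : G →* Monoid.End Vc) (hα : ∀ g, α g = 1 → g = 1) : Function.Injective (rhoOf α) := by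
  intro g h e
  have e1 : α g = α h := by
    ext v
    have := congrArg (fun f : AddMonoid.End (Additive Vc) => f (Additive.ofMul v)) e
    exact this
  have e2 : α (h⁻¹ * g) = 1 := by
    rw [map_mul, e1, ← map_mul, inv_mul_cancel, map_one]
  have := hα _ e2
  exact (inv_mul_eq_one.1 this).symm

/-- Quadratic subgroups are commutative. -/
theorem MQuad.comm {α : G →* Monoid.End Vc} (hα : ∀ g, α g = 1 → g = 1) {A : Subgroup G} (h : MQuad α A)
    {a a' : G} (ha : a ∈ A) (ha' : a' ∈ A) : a * a' = a' * a := by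
  have hq := (isQuad_iff α A).2 h
  apply rhoOf_injective α hα
  have e1 := rho_mul_sub (hq a ha a' ha')
  have e2 := rho_mul_sub (hq a' ha' a ha)
  have : rhoOf α (a * a') - 1 = rhoOf α (a' * a) - 1 := by rw [e1, e2, add_comm]
  exact sub_left_injective this

/-- Quadratic subgroups have exponent `p`. -/
theorem MQuad.pow_eq_one {α : G →* Monoid.End Vc} (hα : ∀ g, α g = 1 → g = 1) {A : Subgroup G} (h : MQuad α A)
    {p : ℕ} (hV : ∀ v : Vc, v ^ p = 1) {a : G} (ha : a ∈ A) : a ^ p = 1 := by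
  have hq := (isQuad_iff α A).2 h
  apply rhoOf_injective α hα
  have e1 := hq.pow_sub ha p
  have e2 : p • (rhoOf α a - 1) = 0 := by
    ext w
    have : (p • (rhoOf α a - 1)) w = p • ((rhoOf α a - 1) w) := rfl
    rw [this]
    have e3 : ∀ x : Additive Vc, p • x = 0 := by
      intro x
      have : p • x = Additive.ofMul ((Additive.toMul x) ^ p) := rfl
      rw [this, hV]
      rfl
    rw [e3]
    rfl
  rw [e2, sub_eq_zero] at e1
  rw [e1, map_one]

/-- **Main theorem, multiplicative form.** -/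
theorem main_mul {p : ℕ} [hp : Fact p.Prime] (hp2 : p ≠ 2) [Finite G] [Finite Vc] (hpG : IsPGroup p G)
    (hV : ∀ v : Vc, v ^ p = 1) (α : G →* Monoid.End Vc) (hα : ∀ g, α g = 1 → g = 1)
    (h0 : ∃ A : Subgroup G, MQuad α A ∧ A ≠ ⊥ ∧ Nat.card Vc ≤ Nat.card A * Nat.card {v : Vc // ∀ a ∈ A, α a v = v}) :
    ∃ A : Subgroup G, MQuad α A ∧ A ≠ ⊥ ∧ Nat.card Vc ≤ Nat.card A * Nat.card {v : Vc // ∀ a ∈ A, α a v = v} ∧
      ∀ h : G, ∀ a ∈ A, h * a * h⁻¹ ∈ Subgroup.normalizer (A : Set G) := by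
  have hinj : Function.Injective (rhoOf α) := rhoOf_injective α hα
  have hW : ∀ w : Additive Vc, p • w = 0 := by
    intro w
    have : p • w = Additive.ofMul ((Additive.toMul w) ^ p) := rfl
    rw [this, hV]
    rfl
  have hcW : Nat.card (Additive Vc) = Nat.card Vc := rfl
  obtain ⟨A, hA, hAb, hAc, hAn⟩ := main (ρ := rhoOf α) hp2 hpG hW hinj (by
    obtain ⟨A, h1, h2, h3⟩ := h0
    refine ⟨A, (isQuad_iff α A).2 h1, h2, ?_⟩
    rw [hcW, card_fix_eq]
    exact h3)
  refine ⟨A, (isQuad_iff α A).1 hA, hAb, ?_, hAn⟩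
  rw [hcW, card_fix_eq] at hAc
  exact hAc

end Cfsg.Agent.Lib.OffLim.MulForm
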