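/-
From subgroups of an ambient group to the action of a `p`-group on an elementary abelian group.
-/
import Mathlib
import Cfsg.Prelude.Def_Transfer
import Cfsg.Prelude.Def_PLocal
import Cfsg.Agent.Lib.OffLim.MulForm
import Cfsg.Agent.Lib.PGroup.Timmesfeld

set_option autoImplicit false

namespace Cfsg.Agent.Lib.OffLim.Conv

open Cfsg.Agent.Lib.OffLim.MulForm
open scoped commutatorElement

variable {Ω : Type*} [Group Ω]

/-- The conjugation action. -/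
def cMap (V G : Subgroup Ω) (hGV : G ≤ Subgroup.normalizer (V : Set Ω)) (g : ↥G) : ↥V →* ↥V where
  toFun v := ⟨g.1 * v.1 * g.1⁻¹, (Subgroup.mem_normalizer_iff.1 (hGV g.2) v.1).1 v.2⟩
  map_one' := by
    apply Subtype.ext
    simp
  map_mul' := by
    intro x y
    apply Subtype.ext
    simp only [Subgroup.coe_mul]
    group

theorem cMap_coe (V G : Subgroup Ω) (hGV : G ≤ Subgroup.normalizer (V : Set Ω)) (g : ↥G) (v : ↥V) :
    ((cMap V G hGV g v : ↥V) : Ω) = g.1 * v.1 * g.1⁻¹ := rfl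

/-- A quadratic offender exists as soon as an offender does. -/
theorem exists_quad [Finite Ω] {p : ℕ} [Fact p.Prime] {V G : Subgroup Ω} (hV : Cfsg.IsElementaryAbelian p V)
    (hGV : G ≤ Subgroup.normalizer (V : Set Ω)) (hfaith : G ⊓ Subgroup.centralizer (V : Set Ω) = ⊥)
    (hF : ∃ E : Subgroup Ω, E ≤ G ∧ E ≠ ⊥ ∧ Cfsg.IsElementaryAbelian p E ∧
      Nat.card ↥V ≤ Nat.card ↥E * Nat.card ↥(V ⊓ Subgroup.centralizer (E : Set Ω))) :
    ∃ B : Subgroup Ω, B ≤ G ∧ B ≠ ⊥ ∧ Nat.card ↥V ≤ Nat.card ↥B * Nat.card ↥(V ⊓ Subgroup.centralizer (B : Set Ω)) ∧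
      ⁅⁅V, B⁆, B⁆ = ⊥ := by
  classical
  let m : Subgroup Ω → ℕ := fun E => Nat.card ↥E * Nat.card ↥(V ⊓ Subgroup.centralizer (E : Set Ω))
  let 𝓔 : Set (Subgroup Ω) := {E | E ≤ G ∧ E ≠ ⊥ ∧ Cfsg.IsElementaryAbelian p E}
  have h𝓔 : 𝓔.Nonempty := by
    obtain ⟨E, h1, h2, h3, -⟩ := hF
    exact ⟨E, h1, h2, h3⟩
  obtain ⟨E₁, ⟨hE1, hE2, hE3⟩, hmax⟩ := Set.exists_max_image 𝓔 m (Set.toFinite _) h𝓔
  have hm : Nat.card ↥V ≤ m E₁ := by
    obtain ⟨E, h1, h2, h3, h4⟩ := hF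
    exact h4.trans (hmax E ⟨h1, h2, h3⟩)
  have hEc : ∀ x ∈ E₁, ∀ y ∈ E₁, x * y = y * x := by
    intro x hx y hy
    have := hE3.1.is_comm.comm (⟨x, hx⟩ : E₁) ⟨y, hy⟩
    exact congrArg Subtype.val this
  have hbest : Cfsg.IsBestOffenderOn p V E₁ := by
    refine ⟨?_, ?_, ?_⟩
    · intro B hB
      by_cases hB0 : B = ⊥
      · subst hB0
        have h1 : V ⊓ Subgroup.centralizer (((⊥ : Subgroup Ω) : Subgroup Ω) : Set Ω) = V := by
          rw [inf_eq_left]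
          intro x _
          rw [Subgroup.mem_centralizer_iff]
          intro y hy
          have : y = 1 := hy
          simp [this]
        have h2 : Nat.card ↥(⊥ : Subgroup Ω) * Nat.card ↥(V ⊓ Subgroup.centralizer (((⊥ : Subgroup Ω) : Subgroup Ω) : Set Ω)) =
            Nat.card ↥V := by
          rw [h1, Subgroup.card_bot, one_mul]
        rw [h2]
        exact hm
      · refine hmax B ⟨hB.trans hE1, hB0, ?_⟩
        refine ⟨⟨⟨fun x y => Subtype.ext (hEc _ (hB x.2) _ (hB y.2))⟩⟩, fun a ha => hE3.2 a (hB ha)⟩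
    · have : ⁅E₁, E₁⁆ = ⊥ := by
        rw [Subgroup.commutator_eq_bot_iff_le_centralizer]
        intro x hx
        rw [Subgroup.mem_centralizer_iff]
        intro y hy
        exact hEc y hy x hx
      rw [this]
      exact bot_le
    · intro a ha
      rw [hE3.2 a ha]
      exact Subgroup.one_mem _
  have hAV : E₁ ≤ Subgroup.normalizer (V : Set Ω) := hE1.trans hGV
  obtain ⟨-, h2, h3, h4⟩ := Cfsg.Agent.Lib.PGroup.Timmesfeld.timmesfeld V E₁ hV hAV hbest V le_rfl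
  set B := E₁ ⊓ Subgroup.centralizer ((⁅V, E₁⁆ : Subgroup Ω) : Set Ω) with hB
  have hne : ⁅V, E₁⁆ ≠ ⊥ := by
    intro h
    rw [Subgroup.commutator_eq_bot_iff_le_centralizer, Subgroup.le_centralizer_iff] at h
    apply hE2
    rw [eq_bot_iff]
    rw [← hfaith]
    exact le_inf hE1 h
  have hne' := h3 hne
  refine ⟨B, inf_le_left.trans hE1, ?_, ?_, ?_⟩
  · intro h
    rw [h] at hne'
    apply hne'
    rw [Subgroup.commutator_eq_bot_iff_le_centralizer]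
    intro x _
    rw [Subgroup.mem_centralizer_iff]
    intro y hy
    have : y = 1 := hy
    simp [this]
  · rw [h4]
    exact hm
  · rw [Subgroup.commutator_eq_bot_iff_le_centralizer]
    have h5 : ⁅V, B⁆ ≤ ⁅V, E₁⁆ := Subgroup.commutator_mono le_rfl inf_le_left
    have h6 : ⁅V, E₁⁆ ≤ V ⊓ Subgroup.centralizer (B : Set Ω) := by
      rw [h2]
      exact le_sup_left
    exact (h5.trans h6).trans inf_le_right

/-- The final statement, with `p` odd. -/
theorem final [Finite Ω] (p : ℕ) [Fact p.Prime] (hp2 : p ≠ 2) (V G : Subgroup Ω) (hV : Cfsg.IsElementaryAbelian p V)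
    (hG : IsPGroup p ↥G) (hGV : G ≤ Subgroup.normalizer (V : Set Ω)) (hfaith : G ⊓ Subgroup.centralizer (V : Set Ω) = ⊥)
    (hF : ∃ E : Subgroup Ω, E ≤ G ∧ E ≠ ⊥ ∧ Cfsg.IsElementaryAbelian p E ∧
      Nat.card ↥V ≤ Nat.card ↥E * Nat.card ↥(V ⊓ Subgroup.centralizer (E : Set Ω))) :
    ∃ A : Subgroup Ω, A ≤ G ∧ A ≠ ⊥ ∧ Cfsg.IsElementaryAbelian p A ∧
      Nat.card ↥V ≤ Nat.card ↥A * Nat.card ↥(V ⊓ Subgroup.centralizer (A : Set Ω)) ∧ ⁅⁅V, A⁆, A⁆ = ⊥ ∧
      ∀ g ∈ Subgroup.closure {x : Ω | ∃ h ∈ G, ∃ a ∈ A, x = h * a * h⁻¹}, ∀ a ∈ A, g * a * g⁻¹ ∈ A := by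
  classical
  obtain ⟨B, hBG, hBb, hBc, hBq⟩ := exists_quad hV hGV hfaith hF
  letI cV : CommGroup ↥V := { (inferInstance : Group ↥V) with mul_comm := hV.1.is_comm.comm }
  -- the action
  let α : ↥G →* Monoid.End ↥V :=
    { toFun := fun g => cMap V G hGV g
      map_one' := by
        ext v
        show (1 : Ω) * v.1 * (1 : Ω)⁻¹ = v.1
        group
      map_mul' := by
        intro x y
        ext v
        show (x.1 * y.1) * v.1 * (x.1 * y.1)⁻¹ = x.1 * (y.1 * v.1 * y.1⁻¹) * x.1⁻¹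
        group }
  have hα1 : ∀ (g : ↥G) (v : ↥V), ((α g v : ↥V) : Ω) = g.1 * v.1 * g.1⁻¹ := fun _ _ => rfl
  have hα : ∀ g, α g = 1 → g = 1 := by
    intro g hg
    have h1 : g.1 ∈ G ⊓ Subgroup.centralizer (V : Set Ω) := by
      refine ⟨g.2, Subgroup.mem_centralizer_iff.2 ?_⟩
      intro v hv
      have h2 : ((α g ⟨v, hv⟩ : ↥V) : Ω) = v := by rw [hg]; rfl
      rw [hα1] at h2
      have h3 : g.1 * v = v * g.1 := by
        calc g.1 * v = (g.1 * v * g.1⁻¹) * g.1 := by group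
          _ = v * g.1 := by rw [h2]
      exact h3.symm
    rw [hfaith] at h1
    exact Subtype.ext h1
  have hcomm1 : ∀ (w a : Ω), a * w * a⁻¹ = w → w * a * w⁻¹ * a⁻¹ = 1 := by
    intro w a h
    have : w * a = a * w := by
      calc w * a = (a * w * a⁻¹) * a := by rw [h]
        _ = a * w := by group
    rw [this]
    group
  -- translation of quadraticity
  have hq1 : ∀ A : Subgroup Ω, A ≤ G → ⁅⁅V, A⁆, A⁆ = ⊥ → MQuad α (A.subgroupOf G) := by
    intro A _ h a ha a' ha' v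
    rw [Subgroup.commutator_eq_bot_iff_le_centralizer] at h
    apply Subtype.ext
    -- the element
    have hw : ((α a' v * v⁻¹ : ↥V) : Ω) = a'.1 * v.1 * a'.1⁻¹ * v.1⁻¹ := rfl
    rw [hα1, hw]
    have h1 : v.1 * a'.1 * v.1⁻¹ * a'.1⁻¹ ∈ ⁅V, A⁆ := Subgroup.commutator_mem_commutator v.2 ha'
    have h2 := (⁅V, A⁆).inv_mem h1
    have e : (v.1 * a'.1 * v.1⁻¹ * a'.1⁻¹)⁻¹ = a'.1 * v.1 * a'.1⁻¹ * v.1⁻¹ := by group
    rw [e] at h2
    have h3 := Subgroup.mem_centralizer_iff.1 (h h2) a.1 ha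
    calc a.1 * (a'.1 * v.1 * a'.1⁻¹ * v.1⁻¹) * a.1⁻¹ = (a'.1 * v.1 * a'.1⁻¹ * v.1⁻¹) * a.1 * a.1⁻¹ := by rw [h3]
      _ = _ := by group
  have hq2 : ∀ A : Subgroup Ω, A ≤ G → MQuad α (A.subgroupOf G) → ⁅⁅V, A⁆, A⁆ = ⊥ := by
    intro A hAG h
    rw [Subgroup.commutator_eq_bot_iff_le_centralizer, Subgroup.commutator_le]
    intro v hv a' ha'
    rw [Subgroup.mem_centralizer_iff]
    intro a ha
    have h1 := h ⟨a, hAG ha⟩ ha ⟨a', hAG ha'⟩ ha' ⟨v, hv⟩
    have h2 := congrArg Subtype.val h1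
    have hw : ((α ⟨a', hAG ha'⟩ ⟨v, hv⟩ * (⟨v, hv⟩ : ↥V)⁻¹ : ↥V) : Ω) = a' * v * a'⁻¹ * v⁻¹ := rfl
    rw [hα1, hw] at h2
    -- `a` commutes with the inverse commutator
    have h3 : a * (a' * v * a'⁻¹ * v⁻¹) = (a' * v * a'⁻¹ * v⁻¹) * a := by
      calc a * (a' * v * a'⁻¹ * v⁻¹) = (a * (a' * v * a'⁻¹ * v⁻¹) * a⁻¹) * a := by group
        _ = _ := by rw [h2]
    have e : ⁅v, a'⁆ = (a' * v * a'⁻¹ * v⁻¹)⁻¹ := by
      rw [commutatorElement_def]; group
    rw [e]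
    exact (Commute.inv_right (show Commute a _ from h3)).eq
  -- translation of sizes
  have hc1 : ∀ A : Subgroup Ω, A ≤ G → Nat.card ↥(A.subgroupOf G) = Nat.card ↥A := fun A hAG =>
    Nat.card_congr (Subgroup.subgroupOfEquivOfLe hAG).toEquiv
  have hc2 : ∀ A : Subgroup Ω, A ≤ G → Nat.card {v : ↥V // ∀ a ∈ A.subgroupOf G, α a v = v} =
      Nat.card ↥(V ⊓ Subgroup.centralizer (A : Set Ω)) := by
    intro A hAG
    refine Nat.card_congr
      { toFun := fun v => ⟨v.1.1, v.1.2, ?_⟩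
        invFun := fun v => ⟨⟨v.1, v.2.1⟩, ?_⟩
        left_inv := fun v => rfl
        right_inv := fun v => rfl }
    · refine Subgroup.mem_centralizer_iff.2 ?_
      intro a ha
      have h1 := congrArg Subtype.val (v.2 ⟨a, hAG ha⟩ ha)
      rw [hα1] at h1
      calc a * v.1.1 = (a * v.1.1 * a⁻¹) * a := by group
        _ = v.1.1 * a := by rw [h1]
    · intro a ha
      apply Subtype.ext
      rw [hα1]
      have h1 := Subgroup.mem_centralizer_iff.1 v.2.2 a.1 ha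
      rw [h1]
      group
  have hb1 : ∀ A : Subgroup Ω, A ≤ G → A ≠ ⊥ → A.subgroupOf G ≠ ⊥ := by
    intro A hAG hA h
    apply hA
    rw [eq_bot_iff]
    intro x hx
    have : (⟨x, hAG hx⟩ : ↥G) ∈ A.subgroupOf G := hx
    rw [h] at this
    have h2 : (⟨x, hAG hx⟩ : ↥G) = 1 := this
    exact congrArg Subtype.val h2
  have hVp : ∀ v : ↥V, v ^ p = 1 := by
    intro v
    apply Subtype.ext
    exact hV.2 v.1 v.2
  -- apply the main theorem
  haveI : Finite ↥V := inferInstance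
  haveI : Finite ↥G := inferInstance
  obtain ⟨A₂, h1, h2, h3, h4⟩ := main_mul hp2 hG hVp α hα ⟨B.subgroupOf G, hq1 B hBG hBq, hb1 B hBG hBb, by
    have e0 : Nat.card ↥V = Nat.card ↥V := rfl
    rw [hc1 B hBG, hc2 B hBG]
    exact hBc⟩
  -- back to the ambient group
  set A := A₂.map G.subtype with hA
  have hAG : A ≤ G := by
    rintro _ ⟨x, _, rfl⟩
    exact x.2
  have hA₂ : A.subgroupOf G = A₂ := by
    rw [hA]
    exact Subgroup.comap_map_eq_self_of_injective G.subtype_injective A₂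
  rw [← hA₂] at h1 h2 h3
  have hmem : ∀ x : ↥G, x.1 ∈ A ↔ x ∈ A₂ := by
    intro x
    constructor
    · intro h
      have : x ∈ A.subgroupOf G := h
      rwa [hA₂] at this
    · intro h
      exact ⟨x, h, rfl⟩
  refine ⟨A, hAG, ?_, ?_, ?_, hq2 A hAG h1, ?_⟩
  · rintro h
    apply h2
    rw [h, eq_bot_iff]
    intro x hx
    have : x.1 ∈ (⊥ : Subgroup Ω) := hx
    exact Subtype.ext this
  · refine ⟨⟨⟨?_⟩⟩, ?_⟩
    · intro x y
      apply Subtype.ext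
      have hx : (⟨x.1, hAG x.2⟩ : ↥G) ∈ A.subgroupOf G := x.2
      have hy : (⟨y.1, hAG y.2⟩ : ↥G) ∈ A.subgroupOf G := y.2
      have h' := congrArg Subtype.val (MQuad.comm hα h1 hx hy)
      exact h'
    · intro a ha
      have hx : (⟨a, hAG ha⟩ : ↥G) ∈ A.subgroupOf G := ha
      have h' := congrArg Subtype.val (MQuad.pow_eq_one hα h1 hVp hx)
      exact h'
  · rw [← hc1 A hAG, ← hc2 A hAG]
    exact h3
  · -- normality
    have hcl : Subgroup.closure {x : Ω | ∃ h ∈ G, ∃ a ∈ A, x = h * a * h⁻¹} ≤ Subgroup.normalizer (A : Set Ω) := by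
      rw [Subgroup.closure_le]
      rintro _ ⟨h, hh, a, ha, rfl⟩
      have ha' : (⟨a, hAG ha⟩ : ↥G) ∈ A₂ := (hmem _).1 ha
      have hy := h4 ⟨h, hh⟩ _ ha'
      set y : ↥G := (⟨h, hh⟩ : ↥G) * ⟨a, hAG ha⟩ * (⟨h, hh⟩ : ↥G)⁻¹ with hy_def
      have hyc : y.1 = h * a * h⁻¹ := rfl
      show h * a * h⁻¹ ∈ Subgroup.normalizer (A : Set Ω)
      rw [← hyc, Subgroup.mem_normalizer_iff]
      intro z
      constructor
      · intro hz
        have hz' : (⟨z, hAG hz⟩ : ↥G) ∈ A₂ := (hmem _).1 hz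
        have h5 := (Subgroup.mem_normalizer_iff.1 hy _).1 hz'
        exact (hmem _).2 h5
      · intro hz
        have hzG : y.1 * z * y.1⁻¹ ∈ G := hAG hz
        have hz' : (⟨y.1 * z * y.1⁻¹, hzG⟩ : ↥G) ∈ A₂ := (hmem _).1 hz
        have hzG' : z ∈ G := by
          have e : z = y.1⁻¹ * (y.1 * z * y.1⁻¹) * y.1 := by group
          rw [e]
          exact G.mul_mem (G.mul_mem (G.inv_mem y.2) hzG) y.2
        have h5 : (⟨z, hzG'⟩ : ↥G) ∈ A₂ := by
          rw [Subgroup.mem_normalizer_iff.1 hy]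
          have e5 : y * ⟨z, hzG'⟩ * y⁻¹ = ⟨y.1 * z * y.1⁻¹, hzG⟩ := Subtype.ext rfl
          rw [e5]
          exact hz'
        exact (hmem ⟨z, hzG'⟩).2 h5
    intro g hg a ha
    exact (Subgroup.mem_normalizer_iff.1 (hcl hg) a).1 ha

end Cfsg.Agent.Lib.OffLim.Conv
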